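import Groth.Agent.An.H881.Step
import Groth.Agent.An.H881.Coord

/-!
# Local contractions of `ℝ^n` preserving the zero patterns of finitely many polynomials

`contraction` : for every finite set `F` of real polynomials in `n` variables there is a contraction `h` of
a neighbourhood of `0` to `0`, fixing `0`, such that `f (h t x) = 0 ↔ f x = 0` for `f ∈ F` and `t < 1`.
-/

open Filter Topology Set

namespace Groth.Agent.An.H881.Contraction

open Groth.Agent.An.H881.Step Groth.Agent.An.H881.Path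

theorem contr_zero (F : Finset (MvPolynomial (Fin 0) ℝ)) : Contr 0 F := by
  refine ⟨univ, univ_mem, fun _ x => x, ?_, fun _ _ => rfl, fun _ _ => Subsingleton.elim _ _,
    fun _ _ => rfl, fun _ _ _ _ _ _ => Iff.rfl⟩
  exact continuous_snd.continuousOn

/-- the map on points of an endomorphism of the polynomial ring -/
noncomputable def onPts {n : ℕ} (A : MvPolynomial (Fin n) ℝ →ₐ[ℝ] MvPolynomial (Fin n) ℝ)
    (x : Fin n → ℝ) : Fin n → ℝ := fun i => MvPolynomial.eval x (A (MvPolynomial.X i))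

theorem eval_onPts {n : ℕ} (A : MvPolynomial (Fin n) ℝ →ₐ[ℝ] MvPolynomial (Fin n) ℝ)
    (x : Fin n → ℝ) (f : MvPolynomial (Fin n) ℝ) :
    MvPolynomial.eval (onPts A x) f = MvPolynomial.eval x (A f) := by
  induction f using MvPolynomial.induction_on with
  | C a =>
    rw [MvPolynomial.eval_C, ← MvPolynomial.algebraMap_eq, AlgHom.commutes,
      MvPolynomial.algebraMap_eq, MvPolynomial.eval_C]
  | add p q hp hq => simp only [map_add, hp, hq]
  | mul_X p i hp =>
    simp only [map_mul, hp, MvPolynomial.eval_X]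
    rfl

theorem continuous_onPts {n : ℕ} (A : MvPolynomial (Fin n) ℝ →ₐ[ℝ] MvPolynomial (Fin n) ℝ) :
    Continuous (onPts A) :=
  continuous_pi fun i => MvPolynomial.continuous_eval (A (MvPolynomial.X i))

/-- transport of the contraction along an automorphism fixing the origin -/
theorem contr_of_aut {n : ℕ} (A : MvPolynomial (Fin n) ℝ ≃ₐ[ℝ] MvPolynomial (Fin n) ℝ)
    (hA : ∀ i, MvPolynomial.eval (0 : Fin n → ℝ) (A (MvPolynomial.X i)) = 0)
    (F G : Finset (MvPolynomial (Fin n) ℝ)) (hFG : ∀ f ∈ F, A f ∈ G) (hG : Contr n G) :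
    Contr n F := by
  obtain ⟨U, hU, h, hc, h0, h1, hz, hpat⟩ := hG
  set α := onPts A.toAlgHom with hα
  set β := onPts A.symm.toAlgHom with hβ
  have hαβ : ∀ x, α (β x) = x := by
    intro x
    funext i
    change MvPolynomial.eval (β x) (A (MvPolynomial.X i)) = x i
    rw [hβ, eval_onPts]
    change MvPolynomial.eval x (A.symm (A (MvPolynomial.X i))) = x i
    rw [AlgEquiv.symm_apply_apply, MvPolynomial.eval_X]
  have hβα : ∀ x, β (α x) = x := by
    intro x
    funext i
    change MvPolynomial.eval (α x) (A.symm (MvPolynomial.X i)) = x i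
    rw [hα, eval_onPts]
    change MvPolynomial.eval x (A (A.symm (MvPolynomial.X i))) = x i
    rw [AlgEquiv.apply_symm_apply, MvPolynomial.eval_X]
  have hα0 : α 0 = 0 := funext hA
  have hβ0 : β 0 = 0 := by rw [← hα0, hβα]; exact hα0.symm
  have hαc : Continuous α := continuous_onPts _
  have hβc : Continuous β := continuous_onPts _
  refine ⟨β ⁻¹' U, ?_, fun t x => α (h t (β x)), ?_, ?_, ?_, ?_, ?_⟩
  · exact hβc.continuousAt.preimage_mem_nhds (by rw [hβ0]; exact hU)
  · refine hαc.comp_continuousOn (hc.comp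
      (f := fun z : ℝ × (Fin n → ℝ) => (z.1, β z.2)) ?_ ?_)
    · exact (continuous_fst.prodMk (hβc.comp continuous_snd)).continuousOn
    · intro z hz'
      exact ⟨hz'.1, hz'.2⟩
  · intro x hx
    simp only
    rw [h0 _ hx, hαβ]
  · intro x hx
    simp only
    rw [h1 _ hx, hα0]
  · intro t ht
    simp only
    rw [hβ0, hz t ht, hα0]
  · intro t ht x hx f hf
    have h2 := hpat t ht (β x) hx (A f) (hFG f hf)
    have h3 : MvPolynomial.eval (α (h t (β x))) f = MvPolynomial.eval (h t (β x)) (A f) := by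
      rw [hα, eval_onPts]; rfl
    have h4 : MvPolynomial.eval (β x) (A f) = MvPolynomial.eval x f := by
      have : MvPolynomial.eval (α (β x)) f = MvPolynomial.eval (β x) (A f) := by
        rw [hα, eval_onPts]; rfl
      rw [← this, hαβ]
    simp only
    rw [h3, ← h4]
    exact h2

/-- from product coordinates to `Fin (n + 1) → ℝ` -/
theorem contr_of_contrProd {n : ℕ} (G : Finset (MvPolynomial (Fin (n + 1)) ℝ))
    (hG : ∀ g ∈ G, g = 0 ∨ IsUnit (MvPolynomial.finSuccEquiv ℝ n g).leadingCoeff)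
    (h : ∀ Q : Finset (Polynomial (MvPolynomial (Fin n) ℝ)), (∀ q ∈ Q, q.Monic) → ContrProd n Q) :
    Contr (n + 1) G := by
  classical
  -- normalised polynomials
  have hch : ∀ g : MvPolynomial (Fin (n + 1)) ℝ, ∃ q : Polynomial (MvPolynomial (Fin n) ℝ),
      q.Monic ∧ (IsUnit (MvPolynomial.finSuccEquiv ℝ n g).leadingCoeff →
        ∀ (x : Fin n → ℝ) (s : ℝ), (Pe q x).eval s = 0 ↔
          MvPolynomial.eval (Fin.cons s x : Fin (n + 1) → ℝ) g = 0) := by
    intro g
    by_cases hu : IsUnit (MvPolynomial.finSuccEquiv ℝ n g).leadingCoeff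
    · obtain ⟨u, hu⟩ := hu
      refine ⟨Polynomial.C (↑u⁻¹ : MvPolynomial (Fin n) ℝ) * MvPolynomial.finSuccEquiv ℝ n g, ?_,
        fun _ x s => ?_⟩
      · rw [Polynomial.Monic, Polynomial.leadingCoeff_mul, Polynomial.leadingCoeff_C, ← hu]
        exact Units.inv_mul u
      · rw [Pe, Polynomial.map_mul, Polynomial.map_C, Polynomial.eval_mul, Polynomial.eval_C,
          MvPolynomial.eval_eq_eval_mv_eval', mul_eq_zero]
        have hne : MvPolynomial.eval x (↑u⁻¹ : MvPolynomial (Fin n) ℝ) ≠ 0 :=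
          (Units.map (MvPolynomial.eval x).toMonoidHom u⁻¹).ne_zero
        exact ⟨fun h => h.resolve_left hne, Or.inr⟩
    · exact ⟨1, Polynomial.monic_one, fun h => absurd h hu⟩
  choose q hq1 hq2 using hch
  obtain ⟨U, hU, k, hc, h0, h1, hz, hpat⟩ := h (G.image q) (by
    intro p hp
    obtain ⟨g, -, rfl⟩ := Finset.mem_image.1 hp
    exact hq1 g)
  -- the coordinates
  set π : (Fin (n + 1) → ℝ) → (Fin n → ℝ) × ℝ := fun x => (fun i => x i.succ, x 0) with hπ
  set κ : (Fin n → ℝ) × ℝ → (Fin (n + 1) → ℝ) := fun z => Fin.cons z.2 z.1 with hκ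
  have hκπ : ∀ x, κ (π x) = x := by
    intro x
    funext i
    refine Fin.cases ?_ (fun i => ?_) i <;> simp [hκ, hπ]
  have hπκ : ∀ z, π (κ z) = z := by
    intro z
    simp [hκ, hπ]
  have hπc : Continuous π := by
    refine Continuous.prodMk ?_ (continuous_apply _)
    exact continuous_pi fun i => continuous_apply _
  have hκc : Continuous κ := by
    refine continuous_pi fun i => ?_
    refine Fin.cases ?_ (fun i => ?_) i
    · exact continuous_snd
    · exact (continuous_apply i).comp continuous_fst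
  have hπ0 : π 0 = 0 := rfl
  have hκ0 : κ 0 = 0 := by rw [← hπ0, hκπ]
  refine ⟨π ⁻¹' U, ?_, fun t x => κ (k t (π x)), ?_, ?_, ?_, ?_, ?_⟩
  · exact hπc.continuousAt.preimage_mem_nhds (by rw [hπ0]; exact hU)
  · refine hκc.comp_continuousOn (hc.comp
      (f := fun z : ℝ × (Fin (n + 1) → ℝ) => (z.1, π z.2)) ?_ ?_)
    · exact (continuous_fst.prodMk (hπc.comp continuous_snd)).continuousOn
    · intro z hz'
      exact ⟨hz'.1, hz'.2⟩
  · intro x hx
    simp only
    rw [h0 _ hx, hκπ]
  · intro x hx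
    simp only
    rw [h1 _ hx, hκ0]
  · intro t ht
    simp only
    rw [hπ0, hz t ht, hκ0]
  · intro t ht x hx g hg
    rcases hG g hg with rfl | hu
    · simp
    · have h2 := hpat t ht (π x) hx (q g) (Finset.mem_image_of_mem _ hg)
      rw [hq2 g hu, hq2 g hu] at h2
      have h3 : (Fin.cons (π x).2 (π x).1 : Fin (n + 1) → ℝ) = x := hκπ x
      rw [h3] at h2
      exact h2

theorem contr_succ {n : ℕ} (ih : ∀ F : Finset (MvPolynomial (Fin n) ℝ), Contr n F)
    (F : Finset (MvPolynomial (Fin (n + 1)) ℝ)) : Contr (n + 1) F := by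
  classical
  set g : MvPolynomial (Fin (n + 1)) ℝ := ∏ f ∈ F.filter (· ≠ 0), f with hg
  have hg0 : g ≠ 0 := by
    rw [hg, Finset.prod_ne_zero_iff]
    intro f hf
    exact (Finset.mem_filter.1 hf).2
  have hunit := Coord.T_leadingcoeff_isUnit g hg0
  refine contr_of_aut (Coord.T g) ?_ F (F.image (Coord.T g)) (fun f hf => Finset.mem_image_of_mem _ hf)
    (contr_of_contrProd _ ?_ fun Q hQ => contrProd_of_contr ih Q hQ)
  · intro i
    change MvPolynomial.eval (0 : Fin (n + 1) → ℝ) (Coord.T1 g 1 (MvPolynomial.X i)) = 0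
    rw [Coord.T1, MvPolynomial.aeval_X]
    split_ifs
    · simp
    · simp
  · intro p hp
    obtain ⟨f, hf, rfl⟩ := Finset.mem_image.1 hp
    by_cases hf0 : f = 0
    · left; rw [hf0, map_zero]
    · right
      have hdvd : f ∣ g := Finset.dvd_prod_of_mem (fun f => f)
        (Finset.mem_filter.2 ⟨hf, hf0⟩)
      obtain ⟨r, hr⟩ := hdvd
      have h1 : (MvPolynomial.finSuccEquiv ℝ n (Coord.T g g)).leadingCoeff =
          (MvPolynomial.finSuccEquiv ℝ n (Coord.T g f)).leadingCoeff *
            (MvPolynomial.finSuccEquiv ℝ n (Coord.T g r)).leadingCoeff := by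
        rw [← Polynomial.leadingCoeff_mul, ← map_mul, ← map_mul, ← hr]
      rw [h1] at hunit
      exact isUnit_of_mul_isUnit_left hunit

theorem contr_all (n : ℕ) (F : Finset (MvPolynomial (Fin n) ℝ)) : Contr n F := by
  induction n with
  | zero => exact contr_zero F
  | succ n ih => exact contr_succ ih F

/-- **Local contraction preserving the zero patterns of finitely many polynomials.** -/
theorem contraction (n : ℕ) (F : Finset (MvPolynomial (Fin n) ℝ)) :
    ∃ U ∈ 𝓝 (0 : Fin n → ℝ), ∃ h : ℝ → (Fin n → ℝ) → (Fin n → ℝ),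
      ContinuousOn (Function.uncurry h) (Set.Icc (0 : ℝ) 1 ×ˢ U) ∧ (∀ x ∈ U, h 0 x = x) ∧
      (∀ x ∈ U, h 1 x = 0) ∧ (∀ t ∈ Set.Icc (0 : ℝ) 1, h t 0 = 0) ∧
      ∀ t ∈ Set.Ico (0 : ℝ) 1, ∀ x ∈ U, ∀ f ∈ F,
        (MvPolynomial.eval (h t x) f = 0 ↔ MvPolynomial.eval x f = 0) :=
  contr_all n F

end Groth.Agent.An.H881.Contraction
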