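import Groth.Agent.An.H881.Step
import Groth.Agent.An.H881.Coord
import Groth.Agent.An.H881.Contraction
import Groth.Agent.An.H867.LCPoly

/-!
# The contraction theorem with invariant neighbourhoods

Same induction as in `Step` and `Contraction`, keeping track of the invariance of the neighbourhoods.
-/

open Polynomial Filter Topology Set

namespace Groth.Agent.An.H881.Contr2

open Groth.Agent.An.H881.Enum Groth.Agent.An.H881.Sre Groth.Agent.An.H881.Pattern
  Groth.Agent.An.H881.Discr Groth.Agent.An.H881.Path Groth.Agent.An.H881.Interp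
  Groth.Agent.An.H881.Step Groth.Agent.An.H881.Contraction Groth.Agent.An.H867.LCDef

theorem sum_tm_nonneg {a b : ℕ} {u v : ℕ → ℝ} (hv : ∀ i ∈ Finset.Ico a b, v i ≤ v (i + 1)) (s : ℝ) :
    0 ≤ ∑ i ∈ Finset.Ico a b, tm u v s i :=
  Finset.sum_nonneg fun i hi => mul_nonneg (sub_nonneg.2 (hv i hi)) (cl_nonneg _)

theorem sum_tm_le {a b : ℕ} (hab : a ≤ b) {u v : ℕ → ℝ}
    (hv : ∀ i ∈ Finset.Ico a b, v i ≤ v (i + 1)) (s : ℝ) :
    ∑ i ∈ Finset.Ico a b, tm u v s i ≤ v b - v a := by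
  rw [← Finset.sum_Ico_sub v hab]
  exact Finset.sum_le_sum fun i hi =>
    mul_le_of_le_one_right (sub_nonneg.2 (hv i hi)) (cl_le_one _)

theorem Phi_lt {a b : ℕ} (hab : a ≤ b) {u v : ℕ → ℝ} {τ s e : ℝ} (hτ0 : 0 ≤ τ) (hτ1 : τ ≤ 1)
    (he : 0 < e) (hv : ∀ i ∈ Finset.Ico a b, v i ≤ v (i + 1)) (hs : s < u b + e) :
    Phi a b u v τ s < v b + e := by
  have h1 := sum_tm_le hab (u := u) hv s
  have h2 : τ * min (s - u a) 0 ≤ 0 := mul_nonpos_of_nonneg_of_nonpos hτ0 (min_le_right _ _)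
  have h3 : max (s - u b) 0 < e := max_lt (by linarith) he
  have h4 : τ * max (s - u b) 0 ≤ 1 * max (s - u b) 0 :=
    mul_le_mul_of_nonneg_right hτ1 (le_max_right _ _)
  unfold Phi
  linarith

theorem lt_Phi {a b : ℕ} {u v : ℕ → ℝ} {τ s e : ℝ} (hτ0 : 0 ≤ τ) (hτ1 : τ ≤ 1)
    (he : 0 < e) (hv : ∀ i ∈ Finset.Ico a b, v i ≤ v (i + 1)) (hs : u a - e < s) :
    v a - e < Phi a b u v τ s := by
  have h1 := sum_tm_nonneg (u := u) hv s
  have h2 : 0 ≤ τ * max (s - u b) 0 := mul_nonneg hτ0 (le_max_right _ _)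
  have h3 : -e < min (s - u a) 0 := lt_min (by linarith) (by linarith)
  have h4 : 1 * min (s - u a) 0 ≤ τ * min (s - u a) 0 :=
    mul_le_mul_of_nonpos_right hτ1 (min_le_right _ _)
  unfold Phi
  linarith

/-- the conclusion of the contraction theorem in product coordinates -/
def CP (n : ℕ) (Q : Finset ((MvPolynomial (Fin n) ℝ)[X])) : Prop :=
  ∃ (U : Set ((Fin n → ℝ) × ℝ)) (h : ℝ → (Fin n → ℝ) × ℝ → (Fin n → ℝ) × ℝ),
    IsContraction (0 : (Fin n → ℝ) × ℝ) U h ∧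
      ∀ q ∈ Q, Compat U h {x | (Pe q x.1).eval x.2 = 0}

theorem cp_of_contr {n : ℕ} (ih : Groth.Agent.An.H867.LCPoly.Contr n)
    (Q : Finset ((MvPolynomial (Fin n) ℝ)[X])) (hQ : ∀ q ∈ Q, q.Monic) : CP n Q := by
  classical
  set P : (MvPolynomial (Fin n) ℝ)[X] := X * ∏ q ∈ Q, q with hPdef
  have hP : P.Monic := monic_X.mul (monic_prod_of_monic _ _ hQ)
  have hdvd : ∀ q ∈ Q, q ∣ P := fun q hq => (Finset.dvd_prod_of_mem _ hq).mul_left _
  set m := P.natDegree with hm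
  obtain ⟨D, hD⟩ := exists_detects P
  obtain ⟨U', h', HC, hpat''⟩ := ih D
  have hU' : U' ∈ 𝓝 (0 : Fin n → ℝ) := HC.isOpen.mem_nhds HC.mem
  have hc' := HC.cont
  have h0' := HC.zero
  have h1' := HC.one
  have hz' := HC.fix
  have hpat' : ∀ t ∈ Ico (0 : ℝ) 1, ∀ x ∈ U', ∀ f ∈ D,
      (MvPolynomial.eval (h' t x) f = 0 ↔ MvPolynomial.eval x f = 0) :=
    fun t ht x hx f hf => hpat'' f hf t ht x hx
  -- the index range
  have hroot0 : ∃ j, xi P (0 : Fin n → ℝ) j = 0 := by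
    refine exists_xi_eq hP (q := X) (dvd_mul_right _ _) ?_
    simp
  obtain ⟨a, b, hab, hbm, hzero, honly⟩ := exists_range (xi_mono P 0) hroot0
  -- the gap
  obtain ⟨ρ, hρ, hgap⟩ : ∃ ρ : ℝ, 0 < ρ ∧ ∀ j, xi P (0 : Fin n → ℝ) j ≠ 0 →
      2 * ρ ≤ |xi P (0 : Fin n → ℝ) j| := by
    have : ∀ j : Fin m, ∃ ρ : ℝ, 0 < ρ ∧ ∀ ρ' ≤ ρ, xi P (0 : Fin n → ℝ) j ≠ 0 →
        2 * ρ' ≤ |xi P (0 : Fin n → ℝ) j| := by
      intro j
      by_cases hj : xi P (0 : Fin n → ℝ) j = 0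
      · exact ⟨1, one_pos, fun _ _ h => absurd hj h⟩
      · have := abs_pos.2 hj
        exact ⟨|xi P (0 : Fin n → ℝ) j| / 2, by linarith, fun ρ' h _ => by linarith⟩
    choose f hf1 hf2 using this
    have hne : (Finset.univ : Finset (Fin m)).Nonempty := ⟨⟨b, hbm⟩, Finset.mem_univ _⟩
    obtain ⟨c, hc, hmin⟩ := Finset.exists_min_image Finset.univ f hne
    exact ⟨f c, hf1 c, fun j hj => hf2 j _ (hmin j (Finset.mem_univ _)) hj⟩
  -- the size
  obtain ⟨η, hη, hη1, hη2⟩ : ∃ η : ℝ, 0 < η ∧ 2 * η ≤ ρ ∧ (5 + 2 * ((b : ℝ) - a)) * (2 * η) < ρ := by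
    have hK : 0 < 5 + 2 * ((b : ℝ) - a) := by
      have : (a : ℝ) ≤ b := by exact_mod_cast hab
      linarith
    refine ⟨ρ / (4 * (5 + 2 * ((b : ℝ) - a))), by positivity, ?_, ?_⟩
    · rw [← mul_div_assoc, div_le_iff₀ (by positivity)]
      have : (a : ℝ) ≤ b := by exact_mod_cast hab
      nlinarith
    · have : (5 + 2 * ((b : ℝ) - a)) * (2 * (ρ / (4 * (5 + 2 * ((b : ℝ) - a))))) = ρ / 2 := by
        field_simp
        norm_num
      rw [this]
      linarith
  set W : Set (Fin n → ℝ) := {x | ∀ j, |xi P x j - xi P 0 j| < η} with hWdef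
  have hW : W ∈ 𝓝 (0 : Fin n → ℝ) := by
    have h1 := tendsto_pi_nhds.1 (tendsto_xi hP (tendsto_id (α := Fin n → ℝ) (x := 𝓝 0)))
    have h2 : ∀ j, ∀ᶠ x in 𝓝 (0 : Fin n → ℝ), |xi P x j - xi P 0 j| < η := by
      intro j
      have := (Metric.tendsto_nhds.1 (h1 j)) η hη
      simpa [Real.dist_eq] using this
    exact eventually_all.2 h2
  have hWin : ∀ x ∈ W, ∀ i, a ≤ i → i ≤ b → |ex (xi P x) i| ≤ η := by
    intro x hx i h1 h2
    rw [ex_of_lt _ (h2.trans_lt hbm)]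
    have := hx ⟨i, h2.trans_lt hbm⟩
    rw [hzero ⟨i, h2.trans_lt hbm⟩ h1 h2, sub_zero] at this
    exact this.le
  have hWout : ∀ x ∈ W, ∀ j : Fin m, |xi P x j| < ρ → a ≤ j ∧ (j : ℕ) ≤ b := by
    intro x hx j hj
    by_contra hcon
    have h1 : xi P 0 j ≠ 0 := fun h => hcon (honly j h)
    have h2 := hgap j h1
    have h3 := hx j
    have h4 := abs_sub_abs_le_abs_sub (xi P 0 j) (xi P x j)
    rw [abs_sub_comm] at h4
    linarith
  obtain ⟨U1, hU1W, hU1U', HC1⟩ := HC.exists_subset hW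
  -- facts along trajectories
  have hγ : ∀ x ∈ U', ContinuousOn (fun t => h' t x) (Ico (0 : ℝ) 1) := by
    intro x hx
    have h1 : ContinuousOn (fun t : ℝ => (t, x)) (Ico (0 : ℝ) 1) := by fun_prop
    exact hc'.comp h1 fun t ht => ⟨⟨ht.1, ht.2.le⟩, hx⟩
  have hpat : ∀ x ∈ U', ∀ t ∈ Ico (0 : ℝ) 1, ∀ t' ∈ Ico (0 : ℝ) 1, ∀ d ∈ D,
      MvPolynomial.eval (h' t x) d = 0 ↔ MvPolynomial.eval (h' t' x) d = 0 := fun x hx t ht t' ht' d hd =>
    (hpat' t ht x hx d hd).trans (hpat' t' ht' x hx d hd).symm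
  have h0mem : (0 : ℝ) ∈ Ico (0 : ℝ) 1 := ⟨le_rfl, one_pos⟩
  have hxi : ∀ x ∈ U', ∀ t ∈ Ico (0 : ℝ) 1, ∀ i j : Fin m,
      xi P (h' t x) i = xi P (h' t x) j ↔ xi P x i = xi P x j := by
    intro x hx t ht i j
    have := xi_eq_iff hP hD isPreconnected_Ico (hγ x hx) (hpat x hx) ht h0mem i j
    rw [h0' x hx] at this
    exact this
  have hrt : ∀ x ∈ U', ∀ t ∈ Ico (0 : ℝ) 1, ∀ q ∈ Q, ∀ j : Fin m,
      (Pe q (h' t x)).eval (xi P (h' t x) j) = 0 ↔ (Pe q x).eval (xi P x j) = 0 := by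
    intro x hx t ht q hq j
    have := root_iff hP hD isPreconnected_Ico (hγ x hx) (hpat x hx) (hQ q hq) (hdvd q hq) ht h0mem j
    rw [h0' x hx] at this
    exact this
  have hstep : ∀ x : Fin n → ℝ, ∀ i ∈ Finset.Ico a b, ex (xi P x) i ≤ ex (xi P x) (i + 1) := by
    intro x i hi
    rw [Finset.mem_Ico] at hi
    rw [ex_of_lt _ (by omega : i < P.natDegree), ex_of_lt _ (by omega : i + 1 < P.natDegree)]
    exact xi_mono P x (Fin.le_def.2 (Nat.le_succ i))
  have hcoin : ∀ x ∈ U', ∀ t ∈ Icc (0 : ℝ) 1, ∀ i ∈ Finset.Ico a b,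
      ex (xi P x) i = ex (xi P x) (i + 1) → ex (xi P (h' t x)) i = ex (xi P (h' t x)) (i + 1) := by
    intro x hx t ht i hi heq
    rw [Finset.mem_Ico] at hi
    rw [ex_of_lt _ (by omega : i < P.natDegree), ex_of_lt _ (by omega : i + 1 < P.natDegree)] at heq ⊢
    rcases ht.2.eq_or_lt with h1 | h1
    · rw [h1, h1' x hx, hzero ⟨i, _⟩ hi.1 hi.2.le, hzero ⟨i + 1, _⟩ (by simp only; omega) (by simp only; omega)]
    · exact (hxi x hx t ⟨ht.1, h1⟩ _ _).2 heq
  have hlt : ∀ x ∈ U', ∀ t ∈ Ico (0 : ℝ) 1, ∀ i ∈ Finset.Ico a b,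
      ex (xi P x) i < ex (xi P x) (i + 1) → ex (xi P (h' t x)) i < ex (xi P (h' t x)) (i + 1) := by
    intro x hx t ht i hi h1
    refine lt_of_le_of_ne (hstep _ i hi) fun h2 => ?_
    rw [Finset.mem_Ico] at hi
    rw [ex_of_lt _ (by omega : i < P.natDegree), ex_of_lt _ (by omega : i + 1 < P.natDegree)] at h1 h2
    rw [(hxi x hx t ht _ _).1 h2] at h1
    exact lt_irrefl _ h1
  have hex0 : ∀ i, a ≤ i → i ≤ b → ex (xi P (0 : Fin n → ℝ)) i = 0 := by
    intro i h1 h2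
    rw [ex_of_lt _ (by omega : i < P.natDegree)]
    exact hzero ⟨i, _⟩ h1 h2
  -- continuity of the real parts in the base
  have hcont : ∀ i, a ≤ i → i ≤ b → Continuous fun x : Fin n → ℝ => ex (xi P x) i := by
    intro i h1 h2
    rw [continuous_iff_continuousAt]
    intro x
    unfold ContinuousAt
    simp only [ex_of_lt _ (show i < P.natDegree by omega)]
    exact (tendsto_pi_nhds.1 (tendsto_xi hP tendsto_id)) ⟨i, _⟩
  set V : Set (Fin n → ℝ) → ℝ → Set ((Fin n → ℝ) × ℝ) := fun W1 e =>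
    {z | z.1 ∈ W1 ∧ ex (xi P z.1) a - e < z.2 ∧ z.2 < ex (xi P z.1) b + e} with hVdef
  have hVopen : ∀ (W1 : Set (Fin n → ℝ)) (e : ℝ), IsOpen W1 → IsOpen (V W1 e) := by
    intro W1 e hW1
    refine (hW1.preimage continuous_fst).inter (IsOpen.inter ?_ ?_)
    · exact isOpen_lt (((hcont a le_rfl hab).comp continuous_fst).sub continuous_const) continuous_snd
    · exact isOpen_lt continuous_snd (((hcont b hab le_rfl).comp continuous_fst).add continuous_const)
  have hVmem : ∀ (W1 : Set (Fin n → ℝ)) (e : ℝ), 0 ∈ W1 → 0 < e → (0 : (Fin n → ℝ) × ℝ) ∈ V W1 e := by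
    intro W1 e h1 he
    refine ⟨h1, ?_, ?_⟩
    · change ex (xi P (0 : Fin n → ℝ)) a - e < 0
      rw [hex0 a le_rfl hab]
      linarith
    · change 0 < ex (xi P (0 : Fin n → ℝ)) b + e
      rw [hex0 b hab le_rfl]
      linarith
  set h : ℝ → (Fin n → ℝ) × ℝ → (Fin n → ℝ) × ℝ := fun t x =>
    (h' t x.1, Phi a b (ex (xi P x.1)) (ex (xi P (h' t x.1))) (1 - t) x.2) with hhdef
  have hVmaps : ∀ (W1 : Set (Fin n → ℝ)) (e : ℝ), 0 < e →
      (∀ t ∈ Icc (0 : ℝ) 1, ∀ x ∈ W1, h' t x ∈ W1) →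
      ∀ t ∈ Icc (0 : ℝ) 1, ∀ z ∈ V W1 e, h t z ∈ V W1 e := by
    intro W1 e he hW1 t ht z hz
    refine ⟨hW1 t ht _ hz.1, ?_, ?_⟩
    · exact lt_Phi (by linarith [ht.2]) (by linarith [ht.1]) he (hstep _) hz.2.1
    · exact Phi_lt hab (by linarith [ht.2]) (by linarith [ht.1]) he (hstep _) hz.2.2
  have hVs : ∀ z ∈ V U1 η, |z.2| ≤ 2 * η := by
    intro z hz
    have h1 := hWin z.1 (hU1W hz.1) a le_rfl hab
    have h2 := hWin z.1 (hU1W hz.1) b hab le_rfl
    rw [abs_le] at h1 h2 ⊢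
    have := hz.2.1
    have := hz.2.2
    constructor <;> linarith
  refine ⟨V U1 η, h, ⟨hVopen _ _ HC1.isOpen, hVmem _ _ HC1.mem hη, ?_, ?_, ?_, ?_,
    hVmaps U1 η hη HC1.maps, ?_⟩, ?_⟩
  · -- continuity
    rintro ⟨t, x, s⟩ ⟨ht, hxs⟩
    have hx : x ∈ U' := hU1U' hxs.1
    set l := 𝓝[Icc (0 : ℝ) 1 ×ˢ (V U1 η)] ((t, x, s) : ℝ × (Fin n → ℝ) × ℝ) with hl
    have hid : Tendsto (fun z : ℝ × (Fin n → ℝ) × ℝ => z) l (𝓝 (t, x, s)) :=
      tendsto_id.mono_left nhdsWithin_le_nhds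
    have htt : Tendsto (fun z : ℝ × (Fin n → ℝ) × ℝ => z.1) l (𝓝 t) :=
      (continuous_fst.tendsto (t, x, s)).comp hid
    have hxx : Tendsto (fun z : ℝ × (Fin n → ℝ) × ℝ => z.2.1) l (𝓝 x) :=
      ((continuous_fst.comp continuous_snd).tendsto (t, x, s)).comp hid
    have hss : Tendsto (fun z : ℝ × (Fin n → ℝ) × ℝ => z.2.2) l (𝓝 s) :=
      ((continuous_snd.comp continuous_snd).tendsto (t, x, s)).comp hid
    have hh : Tendsto (fun z : ℝ × (Fin n → ℝ) × ℝ => h' z.1 z.2.1) l (𝓝 (h' t x)) := by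
      have h1 := hc' (t, x) ⟨ht, hx⟩
      have h2 : Tendsto (fun z : ℝ × (Fin n → ℝ) × ℝ => (z.1, z.2.1)) l
          (𝓝[Icc (0 : ℝ) 1 ×ˢ U'] (t, x)) := by
        refine tendsto_nhdsWithin_iff.2 ⟨htt.prodMk_nhds hxx, ?_⟩
        filter_upwards [self_mem_nhdsWithin] with z hz
        exact ⟨hz.1, hU1U' hz.2.1⟩
      exact h1.tendsto.comp h2
    refine hh.prodMk_nhds ?_
    refine tendsto_Phi hab ?_ ?_ (tendsto_const_nhds.sub htt) hss (hcoin x hx t ht)
    · intro i h1 h2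
      simp only [ex_of_lt _ (show i < P.natDegree by omega)]
      exact (tendsto_pi_nhds.1 (tendsto_xi hP hxx)) ⟨i, _⟩
    · intro i h1 h2
      simp only [ex_of_lt _ (show i < P.natDegree by omega)]
      exact (tendsto_pi_nhds.1 (tendsto_xi hP hh)) ⟨i, _⟩
  · rintro ⟨x, s⟩ hxs
    have hx : x ∈ U' := hU1U' hxs.1
    simp only [hhdef, h0' x hx, sub_zero]
    rw [Phi_self hab (hstep x)]
  · rintro ⟨x, s⟩ hxs
    have hx : x ∈ U' := hU1U' hxs.1
    simp only [hhdef, h1' x hx, sub_self]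
    refine Prod.ext rfl ?_
    change Phi a b (ex (xi P x)) (ex (xi P 0)) 0 s = 0
    unfold Phi
    rw [hex0 a le_rfl hab, zero_mul, zero_mul, Finset.sum_eq_zero]
    · simp
    · intro i hi
      rw [Finset.mem_Ico] at hi
      unfold tm
      rw [hex0 i hi.1 hi.2.le, hex0 (i + 1) (by omega) (by omega)]
      simp
  · intro t ht
    refine Prod.ext (hz' t ht) ?_
    change Phi a b (ex (xi P 0)) (ex (xi P (h' t 0))) (1 - t) 0 = 0
    rw [hz' t ht]
    have h1 := Phi_node (τ := 1 - t) (v := ex (xi P (0 : Fin n → ℝ))) (hstep 0)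
      (fun i _ h => h) le_rfl hab
    rw [hex0 a le_rfl hab] at h1
    exact h1
  · -- basis of invariant neighbourhoods
    intro O hO
    rw [← Prod.mk_zero_zero, nhds_prod_eq, mem_prod_iff] at hO
    obtain ⟨V1, hV1, V2, hV2, hV12⟩ := hO
    obtain ⟨δ, hδ, hδV⟩ := Metric.mem_nhds_iff.1 hV2
    set e := min η (δ / 2) with he
    have he0 : 0 < e := lt_min hη (by linarith)
    have hsmall : ∀ᶠ x in 𝓝 (0 : Fin n → ℝ), |ex (xi P x) a| < e ∧ |ex (xi P x) b| < e := by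
      have h1 : Tendsto (fun x => |ex (xi P x) a|) (𝓝 (0 : Fin n → ℝ)) (𝓝 0) := by
        have := ((hcont a le_rfl hab).tendsto 0).abs
        rwa [hex0 a le_rfl hab, abs_zero] at this
      have h2 : Tendsto (fun x => |ex (xi P x) b|) (𝓝 (0 : Fin n → ℝ)) (𝓝 0) := by
        have := ((hcont b hab le_rfl).tendsto 0).abs
        rwa [hex0 b hab le_rfl, abs_zero] at this
      exact (h1.eventually (gt_mem_nhds he0)).and (h2.eventually (gt_mem_nhds he0))
    obtain ⟨W2, hW2, hW2o, hW20, hW2m⟩ := HC1.basis _ (inter_mem hV1 hsmall)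
    refine ⟨V W2 e, ?_, hVopen _ _ hW2o, hVmem _ _ hW20 he0, hVmaps W2 e he0 hW2m⟩
    rintro ⟨x, s⟩ hxs
    obtain ⟨⟨hx1, hx2, hx3⟩, hx4⟩ := hW2 hxs.1
    refine ⟨hV12 ⟨hx1, hδV ?_⟩, hx4, ?_, ?_⟩
    · rw [Metric.mem_ball, Real.dist_eq, sub_zero]
      have h1 := hxs.2.1
      have h2 := hxs.2.2
      simp only at h1 h2
      rw [abs_lt] at hx2 hx3 ⊢
      have h3 : e ≤ δ / 2 := min_le_right _ _
      constructor <;> linarith
    · have h1 := hxs.2.1
      have h3 : e ≤ η := min_le_left _ _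
      simp only at h1 ⊢
      linarith
    · have h1 := hxs.2.2
      have h3 : e ≤ η := min_le_left _ _
      simp only at h1 ⊢
      linarith
  · rintro q hq t ht ⟨x, s⟩ hxs
    have hx : x ∈ U' := hU1U' hxs.1
    have htI : t ∈ Icc (0 : ℝ) 1 := ⟨ht.1, ht.2.le⟩
    have hxW : x ∈ W := hU1W hxs.1
    have hyW : h' t x ∈ W := hU1W (HC1.maps t htI x hxs.1)
    have hsη : |s| ≤ 2 * η := hVs _ hxs
    have hτ : 0 < 1 - t := by linarith [ht.2]
    have hin2 : ∀ x ∈ W, ∀ i, a ≤ i → i ≤ b → |ex (xi P x) i| ≤ 2 * η := fun x hx i h1 h2 =>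
      (hWin x hx i h1 h2).trans (by linarith)
    have hnode : ∀ j : Fin m, a ≤ j → (j : ℕ) ≤ b →
        Phi a b (ex (xi P x)) (ex (xi P (h' t x))) (1 - t) (xi P x j) = xi P (h' t x) j := by
      intro j h1 h2
      have := Phi_node (τ := 1 - t) (hstep x) (hcoin x hx t htI) h1 h2
      rwa [ex_fin, ex_fin] at this
    change (Pe q (h' t x)).eval (Phi a b (ex (xi P x)) (ex (xi P (h' t x))) (1 - t) s) = 0 ↔
      (Pe q x).eval s = 0
    constructor
    · intro h1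
      obtain ⟨j, hj⟩ := exists_xi_eq hP (hdvd q hq) h1
      have h2 : |xi P (h' t x) j| < ρ := by
        rw [hj]
        exact (abs_Phi_le hab hτ.le (by linarith [ht.1]) (hin2 x hxW) (hin2 _ hyW) hsη).trans_lt hη2
      obtain ⟨h3, h4⟩ := hWout _ hyW j h2
      rw [← hnode j h3 h4] at hj
      have hinj := (strictMono_Phi hab hτ (hstep x) (hstep (h' t x)) (hlt x hx t ht)).injective
      rw [← hinj hj]
      rw [← hj, hnode j h3 h4] at h1
      exact (hrt x hx t ht q hq j).1 h1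
    · intro h1
      obtain ⟨j, hj⟩ := exists_xi_eq hP (hdvd q hq) h1
      have h2 : |xi P x j| < ρ := by
        rw [hj]
        refine lt_of_le_of_ne (hsη.trans hη1) fun h => ?_
        have := hWin x hxW a le_rfl hab
        have h5 := hWin x hxW b hab le_rfl
        have h6 := hxs.2.1
        have h7 := hxs.2.2
        simp only at h6 h7
        rw [abs_le] at this h5
        have h8 : |s| < 2 * η := abs_lt.2 ⟨by linarith, by linarith⟩
        linarith
      obtain ⟨h3, h4⟩ := hWout _ hxW j h2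
      rw [← hj, hnode j h3 h4]
      rw [← hj] at h1
      exact (hrt x hx t ht q hq j).2 h1

/-- transport along a homeomorphism fixing the origin -/
theorem exists_of_homeomorph {E E' : Type*} [TopologicalSpace E] [TopologicalSpace E'] {a : E}
    {U : Set E} {h : ℝ → E → E} (H : IsContraction a U h) (e : E ≃ₜ E') {ι : Type*} (s : Set ι)
    (Z : ι → Set E) (Z' : ι → Set E') (hZ : ∀ i ∈ s, Compat U h (Z i))
    (hZZ : ∀ i ∈ s, ∀ x, e x ∈ Z' i ↔ x ∈ Z i) :
    ∃ (U' : Set E') (h' : ℝ → E' → E'), IsContraction (e a) U' h' ∧ ∀ i ∈ s, Compat U' h' (Z' i) := by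
  refine ⟨_, _, H.image_homeomorph e, ?_⟩
  rintro i hi t ht _ ⟨x, hx, rfl⟩
  simp only [Homeomorph.symm_apply_apply]
  rw [hZZ i hi, hZZ i hi]
  exact hZ i hi t ht x hx

theorem contr_zero : Groth.Agent.An.H867.LCPoly.Contr 0 := by
  intro F
  refine ⟨univ, fun _ x => x, ⟨isOpen_univ, mem_univ _, continuous_snd.continuousOn, fun _ _ => rfl,
    fun _ _ => Subsingleton.elim _ _, fun _ _ => rfl, fun _ _ _ _ => mem_univ _, ?_⟩,
    fun _ _ _ _ _ _ => Iff.rfl⟩
  intro O hO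
  have hO' : O = univ := eq_univ_of_forall fun x => by
    rw [Subsingleton.elim x 0]; exact mem_of_mem_nhds hO
  exact ⟨univ, by rw [hO', inter_univ], isOpen_univ, mem_univ _, fun _ _ _ _ => mem_univ _⟩

/-- the coordinates `(x_1, .., x_n), x_0` -/
def kap (n : ℕ) : (Fin n → ℝ) × ℝ ≃ₜ (Fin (n + 1) → ℝ) where
  toFun z := Fin.cons z.2 z.1
  invFun x := (fun i => x i.succ, x 0)
  left_inv z := by simp
  right_inv x := by
    funext i
    refine Fin.cases ?_ (fun i => ?_) i <;> simp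
  continuous_toFun := by
    refine continuous_pi fun i => ?_
    refine Fin.cases ?_ (fun i => ?_) i
    · exact continuous_snd
    · exact (continuous_apply i).comp continuous_fst
  continuous_invFun := by
    refine Continuous.prodMk ?_ (continuous_apply _)
    exact continuous_pi fun i => continuous_apply _

theorem kap_zero (n : ℕ) : kap n 0 = 0 := by
  funext i
  change (Fin.cons (0 : ℝ) (0 : Fin n → ℝ) : Fin (n + 1) → ℝ) i = 0
  refine Fin.cases ?_ (fun i => ?_) i <;> simp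

theorem exists_of_unit {n : ℕ} (ih : Groth.Agent.An.H867.LCPoly.Contr n)
    (G : Finset (MvPolynomial (Fin (n + 1)) ℝ))
    (hG : ∀ g ∈ G, g = 0 ∨ IsUnit (MvPolynomial.finSuccEquiv ℝ n g).leadingCoeff) :
    ∃ (U : Set (Fin (n + 1) → ℝ)) (h : ℝ → (Fin (n + 1) → ℝ) → (Fin (n + 1) → ℝ)),
      IsContraction 0 U h ∧ ∀ f ∈ G, Compat U h {x | MvPolynomial.eval x f = 0} := by
  classical
  have hch : ∀ g : MvPolynomial (Fin (n + 1)) ℝ, ∃ q : Polynomial (MvPolynomial (Fin n) ℝ),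
      q.Monic ∧ (IsUnit (MvPolynomial.finSuccEquiv ℝ n g).leadingCoeff →
        ∀ (x : Fin n → ℝ) (s : ℝ), (Pe q x).eval s = 0 ↔
          MvPolynomial.eval (Fin.cons s x : Fin (n + 1) → ℝ) g = 0) := by
    intro g
    by_cases hu : IsUnit (MvPolynomial.finSuccEquiv ℝ n g).leadingCoeff
    · obtain ⟨u, hu⟩ := hu
      refine ⟨Polynomial.C (↑u⁻¹ : MvPolynomial (Fin n) ℝ) * MvPolynomial.finSuccEquiv ℝ n g, ?_,
        fun _ x s => ?_⟩
      · rw [Polynomial.Monic, Polynomial.leadingCoeff_mul, Polynomial.leadingCoeff_C, ← hu]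
        exact Units.inv_mul u
      · rw [Pe, Polynomial.map_mul, Polynomial.map_C, Polynomial.eval_mul, Polynomial.eval_C,
          MvPolynomial.eval_eq_eval_mv_eval', mul_eq_zero]
        have hne : MvPolynomial.eval x (↑u⁻¹ : MvPolynomial (Fin n) ℝ) ≠ 0 :=
          (Units.map (MvPolynomial.eval x).toMonoidHom u⁻¹).ne_zero
        exact ⟨fun h => h.resolve_left hne, Or.inr⟩
    · exact ⟨1, Polynomial.monic_one, fun h => absurd h hu⟩
  choose q hq1 hq2 using hch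
  obtain ⟨U, k, HC, hcomp⟩ := cp_of_contr ih (G.image q) (by
    intro p hp
    obtain ⟨g, -, rfl⟩ := Finset.mem_image.1 hp
    exact hq1 g)
  obtain ⟨U', h', HC', hcomp'⟩ := exists_of_homeomorph HC (kap n)
    {g | g ∈ G ∧ g ≠ 0} (fun g => {x | (Pe (q g) x.1).eval x.2 = 0})
    (fun g => {x | MvPolynomial.eval x g = 0})
    (fun g hg => hcomp (q g) (Finset.mem_image_of_mem _ hg.1)) (by
      intro g hg z
      exact (hq2 g ((hG g hg.1).resolve_left hg.2) z.1 z.2).symm)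
  rw [kap_zero] at HC'
  refine ⟨U', h', HC', fun f hf => ?_⟩
  by_cases hf0 : f = 0
  · intro t _ x _
    simp [hf0]
  · exact hcomp' f ⟨hf, hf0⟩

theorem contr_succ {n : ℕ} (ih : Groth.Agent.An.H867.LCPoly.Contr n) :
    Groth.Agent.An.H867.LCPoly.Contr (n + 1) := by
  classical
  intro F
  set g : MvPolynomial (Fin (n + 1)) ℝ := ∏ f ∈ F.filter (· ≠ 0), f with hg
  have hg0 : g ≠ 0 := by
    rw [hg, Finset.prod_ne_zero_iff]
    intro f hf
    exact (Finset.mem_filter.1 hf).2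
  have hunit := Coord.T_leadingcoeff_isUnit g hg0
  set A := Coord.T g with hA
  obtain ⟨U, h, HC, hcomp⟩ := exists_of_unit ih (F.image A) (by
    intro p hp
    obtain ⟨f, hf, rfl⟩ := Finset.mem_image.1 hp
    by_cases hf0 : f = 0
    · left; rw [hf0, map_zero]
    · right
      have hdvd : f ∣ g := Finset.dvd_prod_of_mem (fun f => f)
        (Finset.mem_filter.2 ⟨hf, hf0⟩)
      obtain ⟨r, hr⟩ := hdvd
      have h1 : (MvPolynomial.finSuccEquiv ℝ n (A g)).leadingCoeff =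
          (MvPolynomial.finSuccEquiv ℝ n (A f)).leadingCoeff *
            (MvPolynomial.finSuccEquiv ℝ n (A r)).leadingCoeff := by
        rw [← Polynomial.leadingCoeff_mul, ← map_mul, ← map_mul, ← hr]
      rw [h1] at hunit
      exact isUnit_of_mul_isUnit_left hunit)
  have hαβ : ∀ x, onPts A.toAlgHom (onPts A.symm.toAlgHom x) = x := by
    intro x
    funext i
    change MvPolynomial.eval (onPts A.symm.toAlgHom x) (A (MvPolynomial.X i)) = x i
    rw [eval_onPts]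
    change MvPolynomial.eval x (A.symm (A (MvPolynomial.X i))) = x i
    rw [AlgEquiv.symm_apply_apply, MvPolynomial.eval_X]
  have hβα : ∀ x, onPts A.symm.toAlgHom (onPts A.toAlgHom x) = x := by
    intro x
    funext i
    change MvPolynomial.eval (onPts A.toAlgHom x) (A.symm (MvPolynomial.X i)) = x i
    rw [eval_onPts]
    change MvPolynomial.eval x (A (A.symm (MvPolynomial.X i))) = x i
    rw [AlgEquiv.apply_symm_apply, MvPolynomial.eval_X]
  set α : (Fin (n + 1) → ℝ) ≃ₜ (Fin (n + 1) → ℝ) :=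
    { toFun := onPts A.toAlgHom
      invFun := onPts A.symm.toAlgHom
      left_inv := hβα
      right_inv := hαβ
      continuous_toFun := continuous_onPts _
      continuous_invFun := continuous_onPts _ } with hα
  have hα0 : α 0 = 0 := by
    funext i
    change MvPolynomial.eval (0 : Fin (n + 1) → ℝ) (Coord.T1 g 1 (MvPolynomial.X i)) = 0
    rw [Coord.T1, MvPolynomial.aeval_X]
    split_ifs
    · simp
    · simp
  obtain ⟨U', h', HC', hcomp'⟩ := exists_of_homeomorph HC α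
    (F : Set (MvPolynomial (Fin (n + 1)) ℝ)) (fun f => {x | MvPolynomial.eval x (A f) = 0})
    (fun f => {x | MvPolynomial.eval x f = 0})
    (fun f hf => hcomp (A f) (Finset.mem_image_of_mem _ hf)) (by
      intro f _ x
      change MvPolynomial.eval (onPts A.toAlgHom x) f = 0 ↔ MvPolynomial.eval x (A f) = 0
      rw [eval_onPts]
      exact Iff.rfl)
  rw [hα0] at HC'
  exact ⟨U', h', HC', fun f hf => hcomp' f hf⟩

/-- **The contraction theorem with invariant neighbourhoods.** -/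
theorem contr (n : ℕ) : Groth.Agent.An.H867.LCPoly.Contr n := by
  induction n with
  | zero => exact contr_zero
  | succ n ih => exact contr_succ ih

end Groth.Agent.An.H881.Contr2
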