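import Groth.Agent.An.H881.Pattern
import Mathlib.RingTheory.MvPolynomial.Symmetric.FundamentalTheorem
import Mathlib.RingTheory.Polynomial.Vieta
import Mathlib.Data.Int.Cast.Lemmas

/-!
# Generalized discriminants

For a monic polynomial `P` over a ring `R` there are finitely many elements of `R` whose vanishing
pattern under a homomorphism `φ : R → ℝ` determines the number of distinct values of the sums of two
complex roots of `φ(P)`.
-/

open Polynomial

namespace Groth.Agent.An.H881.Discr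

open Groth.Agent.An.H881.Enum Groth.Agent.An.H881.Pattern

open Classical in
/-- `∑_S ∏_{a ≠ b ∈ S} (μ_a - μ_b)` for `S` of cardinality `k`, `μ_(i,j) = X_i + X_j`. -/
noncomputable def Delta (m k : ℕ) : MvPolynomial (Fin m) ℤ :=
  ∑ S ∈ (Finset.univ : Finset (Fin m × Fin m)).powersetCard k,
    ∏ c ∈ S.offDiag, ((MvPolynomial.X c.1.1 + MvPolynomial.X c.1.2) -
      (MvPolynomial.X c.2.1 + MvPolynomial.X c.2.2))

open Classical in
theorem aeval_Delta {m : ℕ} (v : Fin m → ℂ) (k : ℕ) :
    MvPolynomial.aeval v (Delta m k) =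
      ∑ S ∈ (Finset.univ : Finset (Fin m × Fin m)).powersetCard k,
        ∏ c ∈ S.offDiag, (mu v c.1 - mu v c.2) := by
  unfold Delta
  rw [map_sum]
  refine Finset.sum_congr rfl fun S _ => ?_
  rw [map_prod]
  refine Finset.prod_congr rfl fun c _ => ?_
  simp [mu]

theorem Delta_isSymmetric (m k : ℕ) : (Delta m k).IsSymmetric := by
  classical
  intro σ
  unfold Delta
  rw [map_sum]
  set e : (Fin m × Fin m) ≃ (Fin m × Fin m) := σ.prodCongr σ with he
  refine Finset.sum_bij (fun S _ => S.map e.toEmbedding) ?_ ?_ ?_ ?_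
  · intro S hS
    rw [Finset.mem_powersetCard] at hS ⊢
    exact ⟨Finset.subset_univ _, by rw [Finset.card_map]; exact hS.2⟩
  · intro S _ S' _ h
    exact Finset.map_injective _ h
  · intro S hS
    rw [Finset.mem_powersetCard] at hS
    refine ⟨S.map e.symm.toEmbedding, ?_, ?_⟩
    · rw [Finset.mem_powersetCard]
      exact ⟨Finset.subset_univ _, by rw [Finset.card_map]; exact hS.2⟩
    · rw [Finset.map_map]
      ext x
      simp
  · intro S _
    rw [map_prod]
    refine Finset.prod_bij (fun c _ => (e c.1, e c.2)) ?_ ?_ ?_ ?_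
    · intro c hc
      rw [Finset.mem_offDiag] at hc ⊢
      refine ⟨?_, ?_, ?_⟩
      · exact Finset.mem_map_of_mem e.toEmbedding hc.1
      · exact Finset.mem_map_of_mem e.toEmbedding hc.2.1
      · exact fun h => hc.2.2 (e.injective h)
    · intro c _ c' _ h
      simp only [Prod.mk.injEq, EmbeddingLike.apply_eq_iff_eq] at h
      exact Prod.ext h.1 h.2
    · intro c hc
      rw [Finset.mem_offDiag] at hc
      obtain ⟨h1, h2, h3⟩ := hc
      rw [Finset.mem_map] at h1 h2
      obtain ⟨a, ha, hac⟩ := h1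
      obtain ⟨b, hb, hbc⟩ := h2
      refine ⟨(a, b), ?_, Prod.ext hac hbc⟩
      rw [Finset.mem_offDiag]
      refine ⟨ha, hb, fun hab => h3 ?_⟩
      rw [← hac, ← hbc]
      simp only at hab
      rw [hab]
    · intro c _
      simp [he]

open Classical in
theorem aeval_Delta_eq_zero {m : ℕ} (v : Fin m → ℂ) {k : ℕ} (hk : nS v < k) :
    MvPolynomial.aeval v (Delta m k) = 0 := by
  rw [aeval_Delta]
  refine Finset.sum_eq_zero fun S hS => ?_
  rw [Finset.mem_powersetCard] at hS
  have hlt : (Finset.univ.image (mu v)).card < S.card := by rw [hS.2]; exact hk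
  obtain ⟨a, ha, b, hb, hab, h⟩ := Finset.exists_ne_map_eq_of_card_lt_of_maps_to hlt
    (f := mu v) (fun x _ => by simp)
  exact Finset.prod_eq_zero (i := (a, b)) (Finset.mem_offDiag.2 ⟨ha, hb, hab⟩) (by simp [h])

open Classical in
theorem aeval_Delta_ne_zero {m : ℕ} (v : Fin m → ℂ) :
    MvPolynomial.aeval v (Delta m (nS v)) ≠ 0 := by
  rw [aeval_Delta]
  set M : Finset ℂ := Finset.univ.image (mu v) with hM
  set V : ℂ := ∏ c ∈ M.offDiag, (c.1 - c.2) with hV
  have hV0 : V ≠ 0 := by
    rw [hV, Finset.prod_ne_zero_iff]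
    intro c hc
    rw [Finset.mem_offDiag] at hc
    exact sub_ne_zero.2 hc.2.2
  -- value of one term
  have hterm : ∀ S ∈ (Finset.univ : Finset (Fin m × Fin m)).powersetCard (nS v),
      ∏ c ∈ S.offDiag, (mu v c.1 - mu v c.2) = if Set.InjOn (mu v) S then V else 0 := by
    intro S hS
    rw [Finset.mem_powersetCard] at hS
    split_ifs with hinj
    · have himg : S.image (mu v) = M := by
        refine Finset.eq_of_subset_of_card_le ?_ ?_
        · exact Finset.image_subset_image hS.1
        · rw [Finset.card_image_of_injOn hinj, hS.2]; exact le_rfl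
      rw [hV, ← himg]
      refine Finset.prod_bij (fun c _ => (mu v c.1, mu v c.2)) ?_ ?_ ?_ ?_
      · intro c hc
        rw [Finset.mem_offDiag] at hc ⊢
        exact ⟨Finset.mem_image_of_mem _ hc.1, Finset.mem_image_of_mem _ hc.2.1,
          fun h => hc.2.2 (hinj hc.1 hc.2.1 h)⟩
      · intro c hc c' hc' h
        rw [Finset.mem_offDiag] at hc hc'
        simp only [Prod.mk.injEq] at h
        exact Prod.ext (hinj hc.1 hc'.1 h.1) (hinj hc.2.1 hc'.2.1 h.2)
      · intro c hc
        rw [Finset.mem_offDiag] at hc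
        obtain ⟨h1, h2, h3⟩ := hc
        rw [Finset.mem_image] at h1 h2
        obtain ⟨a, ha, hac⟩ := h1
        obtain ⟨b, hb, hbc⟩ := h2
        refine ⟨(a, b), ?_, Prod.ext hac hbc⟩
        rw [Finset.mem_offDiag]
        refine ⟨ha, hb, fun hab => h3 ?_⟩
        rw [← hac, ← hbc]
        simp only at hab
        rw [hab]
      · intro c _
        rfl
    · rw [Set.InjOn] at hinj
      push Not at hinj
      obtain ⟨a, ha, b, hb, h, hab⟩ := hinj
      exact Finset.prod_eq_zero (i := (a, b)) (Finset.mem_offDiag.2 ⟨ha, hb, hab⟩) (by simp [h])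
  rw [Finset.sum_congr rfl hterm, ← Finset.sum_filter, Finset.sum_const, nsmul_eq_mul]
  refine mul_ne_zero ?_ hV0
  rw [Nat.cast_ne_zero, ← Nat.pos_iff_ne_zero, Finset.card_pos]
  -- a section of mu v
  obtain ⟨s', -, hs'⟩ := Set.exists_subset_bijOn (Set.univ : Set (Fin m × Fin m)) (mu v)
  have himg : (s'.toFinset).image (mu v) = M := by
    apply Finset.coe_injective
    rw [Finset.coe_image, Set.coe_toFinset, hs'.image_eq, hM, Finset.coe_image]
    simp
  refine ⟨s'.toFinset, ?_⟩
  rw [Finset.mem_filter, Finset.mem_powersetCard]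
  have hinj : Set.InjOn (mu v) (s'.toFinset : Set (Fin m × Fin m)) := by
    rw [Set.coe_toFinset]; exact hs'.injOn
  refine ⟨⟨Finset.subset_univ _, ?_⟩, hinj⟩
  rw [← Finset.card_image_of_injOn hinj, himg]
  rfl

theorem nS_le {m : ℕ} (v : Fin m → ℂ) : nS v ≤ m * m := by
  classical
  unfold nS
  refine Finset.card_image_le.trans ?_
  simp

/-- symmetric functions of the roots are polynomials in the coefficients -/
theorem exists_coeff_poly {R : Type*} [CommRing R] {m : ℕ} (P : R[X])
    (Δ : MvPolynomial (Fin m) ℤ) (hΔ : Δ.IsSymmetric) :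
    ∃ D : R, ∀ (φ : R →+* ℝ) (v : Fin m → ℂ), IsEnum (PC (P.map φ)) v →
      ((φ D : ℝ) : ℂ) = MvPolynomial.aeval v Δ := by
  obtain ⟨g, hg⟩ := MvPolynomial.esymmAlgHom_surjective (σ := Fin m) (R := ℤ) (n := m) (by simp)
    (⟨Δ, hΔ⟩ : MvPolynomial.symmetricSubalgebra (Fin m) ℤ)
  have hg' : MvPolynomial.aeval (fun i : Fin m => MvPolynomial.esymm (Fin m) ℤ (i + 1)) g = Δ := by
    rw [← MvPolynomial.esymmAlgHom_apply, hg]
  refine ⟨MvPolynomial.aeval (fun i : Fin m => (-1) ^ ((i : ℕ) + 1) * P.coeff (m - ((i : ℕ) + 1))) g,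
    fun φ v hv => ?_⟩
  have h1 : ∀ i : Fin m, ((φ ((-1) ^ ((i : ℕ) + 1) * P.coeff (m - ((i : ℕ) + 1))) : ℝ) : ℂ) =
      MvPolynomial.aeval v (MvPolynomial.esymm (Fin m) ℤ (i + 1)) := by
    intro i
    have hcoef : ((φ (P.coeff (m - ((i : ℕ) + 1))) : ℝ) : ℂ) =
        (PC (P.map φ)).coeff (m - ((i : ℕ) + 1)) := by
      rw [coeff_map, coeff_map]; rfl
    have hcard : Multiset.card (Finset.univ.val.map v) = m := by simp
    have hprod : PC (P.map φ) = ((Finset.univ.val.map v).map fun t => X - C t).prod := by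
      rw [Multiset.map_map]; exact hv
    have hv1 := Multiset.prod_X_sub_C_coeff (Finset.univ.val.map v)
      (k := m - ((i : ℕ) + 1)) (by rw [hcard]; omega)
    rw [← hprod, hcard] at hv1
    have hsub : m - (m - ((i : ℕ) + 1)) = (i : ℕ) + 1 := by have := i.2; omega
    rw [hsub] at hv1
    rw [MvPolynomial.aeval_esymm_eq_multiset_esymm]
    rw [map_mul, map_pow, map_neg, map_one]
    push_cast
    rw [hcoef, hv1, ← mul_assoc, ← mul_pow]
    norm_num
  rw [← hg']
  have h2 : ∀ g : MvPolynomial (Fin m) ℤ,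
      ((φ (MvPolynomial.aeval (fun i : Fin m =>
        (-1) ^ ((i : ℕ) + 1) * P.coeff (m - ((i : ℕ) + 1))) g) : ℝ) : ℂ) =
      MvPolynomial.aeval v (MvPolynomial.aeval
        (fun i : Fin m => MvPolynomial.esymm (Fin m) ℤ (i + 1)) g) := by
    intro g
    induction g using MvPolynomial.induction_on with
    | C a => simp
    | add p q hp hq => simp only [map_add, Complex.ofReal_add, hp, hq]
    | mul_X p i hp =>
      rw [map_mul, map_mul, map_mul, map_mul, Complex.ofReal_mul, hp, MvPolynomial.aeval_X,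
        MvPolynomial.aeval_X, h1 i]
  exact h2 g

theorem exists_discr {R : Type*} [CommRing R] (m : ℕ) (P : R[X]) :
    ∃ D : Finset R, ∀ φ ψ : R →+* ℝ, (∀ d ∈ D, φ d = 0 ↔ ψ d = 0) →
      ∀ v w : Fin m → ℂ, IsEnum (PC (P.map φ)) v → IsEnum (PC (P.map ψ)) w → nS v = nS w := by
  classical
  choose D hD using fun k => exists_coeff_poly P (Delta m k) (Delta_isSymmetric m k)
  refine ⟨(Finset.range (m * m + 1)).image D, fun φ ψ h v w hv hw => ?_⟩
  have key : ∀ (φ ψ : R →+* ℝ), (∀ d ∈ (Finset.range (m * m + 1)).image D, φ d = 0 ↔ ψ d = 0) →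
      ∀ v w : Fin m → ℂ, IsEnum (PC (P.map φ)) v → IsEnum (PC (P.map ψ)) w → nS v ≤ nS w := by
    intro φ ψ h v w hv hw
    by_contra hlt
    push Not at hlt
    have h1 := hD (nS v) ψ w hw
    rw [aeval_Delta_eq_zero w hlt, Complex.ofReal_eq_zero] at h1
    have h2 := (h (D (nS v)) (Finset.mem_image_of_mem _
      (Finset.mem_range.2 (Nat.lt_succ_of_le (nS_le v))))).2 h1
    have h3 := hD (nS v) φ v hv
    rw [h2, Complex.ofReal_zero] at h3
    exact aeval_Delta_ne_zero v h3.symm
  exact le_antisymm (key φ ψ h v w hv hw) (key ψ φ (fun d hd => (h d hd).symm) w v hw hv)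

end Groth.Agent.An.H881.Discr
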