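import Mathlib.Analysis.Complex.Polynomial.Basic
import Mathlib.Analysis.Polynomial.CauchyBound
import Mathlib.Topology.Algebra.Polynomial
import Mathlib.Topology.Ultrafilter
import Mathlib.Logic.Equiv.Basic
import Mathlib.Algebra.Polynomial.Splits

/-!
# Enumerations of the roots of monic complex polynomials, and continuity of roots

`IsEnum p v` : `v : Fin m → ℂ` lists the roots of the monic polynomial `p` with multiplicities.
`eventually_isEnum` : if the coefficients of `P x` tend to those of `P0` then the roots of `P x` can be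
listed close to any given list of the roots of `P0`.
-/

open Polynomial Filter Topology

namespace Groth.Agent.An.H881.Enum

/-- `v` enumerates the roots of the monic polynomial `p`. -/
def IsEnum {m : ℕ} (p : ℂ[X]) (v : Fin m → ℂ) : Prop := p = ∏ i, (X - C (v i))

theorem exists_isEnum {m : ℕ} (p : ℂ[X]) (hp : p.Monic) (hm : p.natDegree = m) :
    ∃ v : Fin m → ℂ, IsEnum p v := by
  have hs : p.Splits := IsAlgClosed.splits p
  have hcard : Multiset.card p.roots = m := by rw [← hs.natDegree_eq_card_roots, hm]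
  have hlen : p.roots.toList.length = m := by rw [Multiset.length_toList, hcard]
  refine ⟨fun i => p.roots.toList.get (i.cast hlen.symm), ?_⟩
  unfold IsEnum
  have h1 : p = (p.roots.map fun a => X - C a).prod := hs.eq_prod_roots_of_monic hp
  conv_lhs => rw [h1, ← Multiset.coe_toList p.roots]
  rw [Multiset.map_coe, Multiset.prod_coe]
  rw [← Fin.prod_univ_getElem]
  refine Fintype.prod_equiv (finCongr (by rw [List.length_map, hlen])) _ _ fun i => ?_
  simp

theorem IsEnum.monic {m : ℕ} {p : ℂ[X]} {v : Fin m → ℂ} (h : IsEnum p v) : p.Monic := by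
  rw [h]; exact monic_prod_of_monic _ _ fun i _ => monic_X_sub_C _

theorem IsEnum.natDegree {m : ℕ} {p : ℂ[X]} {v : Fin m → ℂ} (h : IsEnum p v) : p.natDegree = m := by
  rw [h, natDegree_prod_of_monic _ _ fun i _ => monic_X_sub_C _]
  simp

theorem IsEnum.eval {m : ℕ} {p : ℂ[X]} {v : Fin m → ℂ} (h : IsEnum p v) (z : ℂ) :
    p.eval z = ∏ i, (z - v i) := by
  conv_lhs => rw [h]
  rw [eval_prod]
  simp

theorem IsEnum.eval_eq_zero_iff {m : ℕ} {p : ℂ[X]} {v : Fin m → ℂ} (h : IsEnum p v) (z : ℂ) :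
    p.eval z = 0 ↔ ∃ i, z = v i := by
  rw [h.eval, Finset.prod_eq_zero_iff]
  simp [sub_eq_zero]

theorem IsEnum.comp {m : ℕ} {p : ℂ[X]} {v : Fin m → ℂ} (h : IsEnum p v) (σ : Equiv.Perm (Fin m)) :
    IsEnum p (v ∘ σ) := by
  unfold IsEnum
  rw [h]
  exact (Equiv.prod_comp σ (fun i => X - C (v i))).symm

theorem IsEnum.roots {m : ℕ} {p : ℂ[X]} {v : Fin m → ℂ} (h : IsEnum p v) :
    p.roots = Finset.univ.val.map v := by
  have : p = ((Finset.univ.val.map v).map fun a => X - C a).prod := by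
    rw [Multiset.map_map]; exact h
  rw [this, roots_multiset_prod_X_sub_C]

/-- Two functions on a fintype with the same multiset of values differ by a permutation. -/
theorem exists_perm_of_map_eq {α β : Type*} [Fintype α] [DecidableEq β] {f g : α → β}
    (h : Finset.univ.val.map f = Finset.univ.val.map g) : ∃ σ : Equiv.Perm α, f ∘ σ = g := by
  classical
  have hc : ∀ c : β, Fintype.card {a // g a = c} = Fintype.card {a // f a = c} := by
    intro c
    have := congrArg (Multiset.count c) h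
    rw [Multiset.count_map, Multiset.count_map] at this
    rw [Fintype.card_subtype, Fintype.card_subtype]
    rw [Finset.card_def, Finset.card_def, Finset.filter_val, Finset.filter_val]
    simp only [eq_comm (a := c)] at this
    exact this.symm
  have e : ∀ c : β, {a // g a = c} ≃ {a // f a = c} := fun c => Fintype.equivOfCardEq (hc c)
  refine ⟨Equiv.ofFiberEquiv e, ?_⟩
  funext a
  exact Equiv.ofFiberEquiv_map e a

theorem IsEnum.exists_perm {m : ℕ} {p : ℂ[X]} {v w : Fin m → ℂ} (h : IsEnum p v) (h' : IsEnum p w) :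
    ∃ σ : Equiv.Perm (Fin m), v ∘ σ = w := by
  classical
  refine exists_perm_of_map_eq ?_
  rw [← h.roots, ← h'.roots]

theorem tendsto_eval {α : Type*} {l : Filter α} {m : ℕ} {P : α → ℂ[X]} {P0 : ℂ[X]}
    (hP : ∀ᶠ x in l, (P x).natDegree = m) (h0 : P0.natDegree = m)
    (hc : ∀ k, Tendsto (fun x => (P x).coeff k) l (𝓝 (P0.coeff k))) (z : ℂ) :
    Tendsto (fun x => (P x).eval z) l (𝓝 (P0.eval z)) := by
  have h1 : (fun x => (P x).eval z) =ᶠ[l]
      fun x => ∑ k ∈ Finset.range (m + 1), (P x).coeff k * z ^ k := by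
    filter_upwards [hP] with x hx
    rw [eval_eq_sum_range, hx]
  rw [tendsto_congr' h1, eval_eq_sum_range, h0]
  exact tendsto_finsetSum _ fun k _ => (hc k).mul_const _

/-- roots are bounded by the coefficients -/
theorem norm_root_le {p : ℂ[X]} (hp : p.Monic) {B : ℝ}
    (hB : ∀ k, ‖p.coeff k‖ ≤ B) {z : ℂ} (hz : p.eval z = 0) : ‖z‖ ≤ B + 1 := by
  have hB0 : 0 ≤ B := (norm_nonneg _).trans (hB 0)
  have h := IsRoot.norm_lt_cauchyBound hp.ne_zero hz
  refine (NNReal.coe_le_coe.2 h.le).trans ?_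
  unfold cauchyBound
  rw [hp.leadingCoeff, nnnorm_one, div_one]
  push_cast
  refine add_le_add_left ?_ 1
  have : (Finset.range p.natDegree).sup (fun x => ‖p.coeff x‖₊) ≤ ⟨B, hB0⟩ :=
    Finset.sup_le fun k _ => by
      rw [← NNReal.coe_le_coe]; exact hB k
  exact_mod_cast NNReal.coe_le_coe.2 this

/-- **Continuity of roots**, in the form of lists. -/
theorem eventually_isEnum {α : Type*} {l : Filter α} {m : ℕ} (P : α → ℂ[X]) (P0 : ℂ[X])
    (hP : ∀ᶠ x in l, (P x).Monic ∧ (P x).natDegree = m)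
    (hc : ∀ k, Tendsto (fun x => (P x).coeff k) l (𝓝 (P0.coeff k))) (v0 : Fin m → ℂ)
    (h0 : IsEnum P0 v0) {ε : ℝ} (hε : 0 < ε) :
    ∀ᶠ x in l, ∃ v : Fin m → ℂ, IsEnum (P x) v ∧ ∀ i, ‖v i - v0 i‖ < ε := by
  classical
  by_contra hcon
  have hfreq := not_eventually.1 hcon
  have hne := frequently_iff_neBot.1 hfreq
  set S : Set α := {x | ¬ ∃ v : Fin m → ℂ, IsEnum (P x) v ∧ ∀ i, ‖v i - v0 i‖ < ε} with hS
  obtain ⟨𝒰, h𝒰⟩ := Ultrafilter.exists_le (l ⊓ 𝓟 S)
  have hl : (𝒰 : Filter α) ≤ l := h𝒰.trans inf_le_left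
  have hUS : ∀ᶠ x in (𝒰 : Filter α), x ∈ S := h𝒰 (mem_inf_of_right (mem_principal_self S))
  have hch : ∀ x, ∃ v : Fin m → ℂ, ((P x).Monic ∧ (P x).natDegree = m) → IsEnum (P x) v := by
    intro x
    by_cases hx : (P x).Monic ∧ (P x).natDegree = m
    · obtain ⟨v, hv⟩ := exists_isEnum (P x) hx.1 hx.2
      exact ⟨v, fun _ => hv⟩
    · exact ⟨0, fun h => absurd h hx⟩
  choose v hv using hch
  -- bound for the coefficients
  have hbd : ∀ᶠ x in l, ∀ k ∈ Finset.range (m + 1), ‖(P x).coeff k‖ ≤ ‖P0.coeff k‖ + 1 := by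
    rw [eventually_all_finset]
    intro k _
    exact ((hc k).norm.eventually (gt_mem_nhds (lt_add_one _))).mono fun x hx => hx.le
  set B : ℝ := ∑ k ∈ Finset.range (m + 1), (‖P0.coeff k‖ + 1) with hB
  have hB0 : 0 ≤ B := Finset.sum_nonneg fun _ _ => by positivity
  have hvb : ∀ᶠ x in l, v x ∈ Metric.closedBall (0 : Fin m → ℂ) (B + 1) := by
    filter_upwards [hP, hbd] with x hx hb
    have hcoef : ∀ k, ‖(P x).coeff k‖ ≤ B := by
      intro k
      by_cases hk : k ∈ Finset.range (m + 1)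
      · exact (hb k hk).trans (Finset.single_le_sum (f := fun k => ‖P0.coeff k‖ + 1)
          (fun _ _ => by positivity) hk)
      · rw [coeff_eq_zero_of_natDegree_lt, norm_zero]
        · exact hB0
        · rw [hx.2]; simpa using hk
    rw [mem_closedBall_zero_iff, pi_norm_le_iff_of_nonneg (by positivity)]
    intro i
    exact norm_root_le hx.1 hcoef (((hv x hx).eval_eq_zero_iff _).2 ⟨i, rfl⟩)
  have hK : IsCompact (Metric.closedBall (0 : Fin m → ℂ) (B + 1)) := isCompact_closedBall _ _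
  obtain ⟨w, -, hw⟩ := hK.ultrafilter_le_nhds (𝒰.map v)
    (le_principal_iff.2 (hl hvb))
  have hw' : Tendsto v (𝒰 : Filter α) (𝓝 w) := hw
  have hwi : ∀ i, Tendsto (fun x => v x i) (𝒰 : Filter α) (𝓝 (w i)) := fun i =>
    (continuous_apply i).continuousAt.tendsto.comp hw'
  have hPw : IsEnum P0 w := by
    unfold IsEnum
    refine Polynomial.funext fun z => ?_
    have h1 : Tendsto (fun x => (P x).eval z) (𝒰 : Filter α) (𝓝 (P0.eval z)) :=
      (tendsto_eval (hP.mono fun _ h => h.2) h0.natDegree hc z).mono_left hl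
    have h2 : (fun x => (P x).eval z) =ᶠ[(𝒰 : Filter α)] fun x => ∏ i, (z - v x i) := by
      filter_upwards [hl hP] with x hx
      exact (hv x hx).eval z
    rw [tendsto_congr' h2] at h1
    have h3 : Tendsto (fun x => ∏ i, (z - v x i)) (𝒰 : Filter α) (𝓝 (∏ i, (z - w i))) :=
      tendsto_finsetProd _ fun i _ => tendsto_const_nhds.sub (hwi i)
    rw [tendsto_nhds_unique h1 h3, eval_prod]
    simp
  obtain ⟨σ, hσ⟩ := hPw.exists_perm h0
  have hev : ∀ᶠ x in (𝒰 : Filter α), ∀ i, ‖v x (σ i) - v0 i‖ < ε := by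
    rw [eventually_all]
    intro i
    have := (hwi (σ i)).sub_const (v0 i)
    have h0' : w (σ i) - v0 i = 0 := by rw [← hσ]; simp
    rw [h0'] at this
    have := this.norm
    rw [norm_zero] at this
    exact this.eventually (gt_mem_nhds hε)
  obtain ⟨x, hxS, hx1, hx2⟩ := (hUS.and (hev.and (hl hP))).exists
  exact hxS ⟨v x ∘ σ, (hv x hx2).comp σ, hx1⟩

end Groth.Agent.An.H881.Enum
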