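import Mathlib.Topology.Algebra.Order.Field
import Mathlib.Topology.Instances.Real.Lemmas
import Mathlib.Algebra.BigOperators.Intervals
import Mathlib.Order.Interval.Finset.Nat
import Mathlib.Topology.Algebra.Monoid
import Mathlib.Algebra.Order.BigOperators.Group.Finset
import Mathlib.Analysis.Normed.Field.Basic
import Mathlib.Analysis.Normed.Group.Basic
import Mathlib.Analysis.Normed.Group.Continuity

/-!
# Piecewise linear interpolation between the entries of two sequences
-/

open Filter Topology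

namespace Groth.Agent.An.H881.Interp

/-- clamp to `[0,1]` -/
noncomputable def cl (x : ℝ) : ℝ := max 0 (min x 1)

theorem cl_nonneg (x : ℝ) : 0 ≤ cl x := le_max_left _ _

theorem cl_le_one (x : ℝ) : cl x ≤ 1 := max_le zero_le_one (min_le_right _ _)

theorem cl_mono : Monotone cl := fun _ _ h => max_le_max_left _ (min_le_min_right _ h)

theorem cl_of_le {x : ℝ} (h : x ≤ 0) : cl x = 0 := by
  unfold cl; rw [max_eq_left]; exact (min_le_left _ _).trans h

theorem cl_of_ge {x : ℝ} (h : 1 ≤ x) : cl x = 1 := by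
  unfold cl; rw [min_eq_right h, max_eq_right zero_le_one]

theorem cl_of_mem {x : ℝ} (h0 : 0 ≤ x) (h1 : x ≤ 1) : cl x = x := by
  unfold cl; rw [min_eq_left h1, max_eq_right h0]

theorem continuous_cl : Continuous cl := continuous_const.max (continuous_id.min continuous_const)

/-- one term of the interpolation -/
noncomputable def tm (u v : ℕ → ℝ) (s : ℝ) (i : ℕ) : ℝ :=
  (v (i + 1) - v i) * cl ((s - u i) / (u (i + 1) - u i))

/-- The piecewise linear map with `u i ↦ v i` for `a ≤ i ≤ b`, with slope `τ` outside `[u a, u b]`. -/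
noncomputable def Phi (a b : ℕ) (u v : ℕ → ℝ) (τ s : ℝ) : ℝ :=
  v a + τ * min (s - u a) 0 + ∑ i ∈ Finset.Ico a b, tm u v s i + τ * max (s - u b) 0

theorem tm_self {u : ℕ → ℝ} {b : ℕ} (h : u b ≤ u (b + 1)) (s : ℝ) :
    tm u u s b + max (s - u (b + 1)) 0 = max (s - u b) 0 := by
  unfold tm
  rcases h.eq_or_lt with h | h
  · rw [← h]; simp
  · have hg : 0 < u (b + 1) - u b := sub_pos.2 h
    rcases le_total s (u b) with h1 | h1
    · rw [cl_of_le (div_nonpos_of_nonpos_of_nonneg (by linarith) hg.le), max_eq_right (by linarith),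
        max_eq_right (by linarith)]
      ring
    · rcases le_total s (u (b + 1)) with h2 | h2
      · rw [cl_of_mem (div_nonneg (by linarith) hg.le) ((div_le_one hg).2 (by linarith)),
          max_eq_right (by linarith), max_eq_left (by linarith)]
        field_simp
        ring
      · rw [cl_of_ge ((one_le_div hg).2 (by linarith)), max_eq_left (by linarith),
          max_eq_left (by linarith)]
        ring

theorem Phi_self {a b : ℕ} (hab : a ≤ b) {u : ℕ → ℝ}
    (hu : ∀ i ∈ Finset.Ico a b, u i ≤ u (i + 1)) (s : ℝ) : Phi a b u u 1 s = s := by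
  induction b, hab using Nat.le_induction with
  | base =>
    unfold Phi
    rcases le_total s (u a) with h | h
    · rw [min_eq_left (by linarith), max_eq_right (by linarith)]; simp
    · rw [min_eq_right (by linarith), max_eq_left (by linarith)]; simp
  | succ b hab ih =>
    have ih' := ih fun i hi => hu i (by rw [Finset.mem_Ico] at hi ⊢; omega)
    unfold Phi at ih' ⊢
    rw [Finset.sum_Ico_succ_top hab]
    have := tm_self (hu b (by rw [Finset.mem_Ico]; omega)) s
    linarith

theorem tm_of_ge {u v : ℕ → ℝ} {s : ℝ} {i : ℕ} (h : u i ≤ u (i + 1))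
    (hc : u i = u (i + 1) → v i = v (i + 1)) (hs : u (i + 1) ≤ s) : tm u v s i = v (i + 1) - v i := by
  unfold tm
  rcases h.eq_or_lt with h | h
  · rw [hc h]; simp
  · rw [cl_of_ge ((one_le_div (sub_pos.2 h)).2 (by linarith)), mul_one]

theorem tm_of_le {u v : ℕ → ℝ} {s : ℝ} {i : ℕ} (h : u i ≤ u (i + 1)) (hs : s ≤ u i) :
    tm u v s i = 0 := by
  unfold tm
  rw [cl_of_le (div_nonpos_of_nonpos_of_nonneg (by linarith) (by linarith)), mul_zero]

theorem mono_of_step {a b : ℕ} {u : ℕ → ℝ} (hu : ∀ i ∈ Finset.Ico a b, u i ≤ u (i + 1)) {i j : ℕ}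
    (hai : a ≤ i) (hij : i ≤ j) (hjb : j ≤ b) : u i ≤ u j := by
  induction j, hij using Nat.le_induction with
  | base => exact le_rfl
  | succ j hij ih => exact (ih (by omega)).trans (hu j (by rw [Finset.mem_Ico]; omega))

theorem Phi_node {a b : ℕ} {u v : ℕ → ℝ} {τ : ℝ}
    (hu : ∀ i ∈ Finset.Ico a b, u i ≤ u (i + 1))
    (hc : ∀ i ∈ Finset.Ico a b, u i = u (i + 1) → v i = v (i + 1)) {j : ℕ} (haj : a ≤ j)
    (hjb : j ≤ b) : Phi a b u v τ (u j) = v j := by
  unfold Phi
  rw [← Finset.sum_Ico_consecutive _ haj hjb]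
  have h1 : ∑ i ∈ Finset.Ico a j, tm u v (u j) i = v j - v a := by
    rw [← Finset.sum_Ico_sub v haj]
    refine Finset.sum_congr rfl fun i hi => ?_
    rw [Finset.mem_Ico] at hi
    exact tm_of_ge (hu i (by rw [Finset.mem_Ico]; omega)) (hc i (by rw [Finset.mem_Ico]; omega))
      (mono_of_step hu (by omega) (by omega) hjb)
  have h2 : ∑ i ∈ Finset.Ico j b, tm u v (u j) i = 0 := by
    refine Finset.sum_eq_zero fun i hi => ?_
    rw [Finset.mem_Ico] at hi
    exact tm_of_le (hu i (by rw [Finset.mem_Ico]; omega)) (mono_of_step hu haj (by omega) (by omega))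
  have h3 : u a ≤ u j := mono_of_step hu le_rfl haj hjb
  have h4 : u j ≤ u b := mono_of_step hu haj hjb le_rfl
  rw [h1, h2, min_eq_right (by linarith), max_eq_right (by linarith)]
  ring

theorem tm_mono {u v : ℕ → ℝ} {i : ℕ} (h : u i ≤ u (i + 1)) (hv : v i ≤ v (i + 1)) :
    Monotone fun s => tm u v s i := by
  intro s s' hs
  exact mul_le_mul_of_nonneg_left (cl_mono (div_le_div_of_nonneg_right (by linarith)
    (sub_nonneg.2 h))) (sub_nonneg.2 hv)

theorem strictMono_Phi {a b : ℕ} (hab : a ≤ b) {u v : ℕ → ℝ} {τ : ℝ} (hτ : 0 < τ)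
    (hu : ∀ i ∈ Finset.Ico a b, u i ≤ u (i + 1))
    (hv : ∀ i ∈ Finset.Ico a b, v i ≤ v (i + 1))
    (hlt : ∀ i ∈ Finset.Ico a b, u i < u (i + 1) → v i < v (i + 1)) :
    StrictMono (Phi a b u v τ) := by
  -- the partial sums
  have key : ∀ c, a ≤ c → c ≤ b → ∀ s s', s < s' →
      (v a + τ * min (s - u a) 0 + ∑ i ∈ Finset.Ico a c, tm u v s i ≤
        v a + τ * min (s' - u a) 0 + ∑ i ∈ Finset.Ico a c, tm u v s' i) ∧
      (s < u c → v a + τ * min (s - u a) 0 + ∑ i ∈ Finset.Ico a c, tm u v s i <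
        v a + τ * min (s' - u a) 0 + ∑ i ∈ Finset.Ico a c, tm u v s' i) := by
    intro c hac
    induction c, hac using Nat.le_induction with
    | base =>
      intro _ s s' hs
      refine ⟨?_, fun h => ?_⟩
      · have : min (s - u a) 0 ≤ min (s' - u a) 0 := min_le_min_right _ (by linarith)
        have := mul_le_mul_of_nonneg_left this hτ.le
        simpa using this
      · have : min (s - u a) 0 < min (s' - u a) 0 := by
          rw [min_eq_left (by linarith : s - u a ≤ 0)]
          exact lt_min (by linarith) (by linarith)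
        have := mul_lt_mul_of_pos_left this hτ
        simpa using this
    | succ c hac ih =>
      intro hcb s s' hs
      obtain ⟨ih1, ih2⟩ := ih (by omega) s s' hs
      have hmem : c ∈ Finset.Ico a b := by rw [Finset.mem_Ico]; omega
      rw [Finset.sum_Ico_succ_top hac, Finset.sum_Ico_succ_top hac]
      have h1 : tm u v s c ≤ tm u v s' c := tm_mono (hu c hmem) (hv c hmem) hs.le
      refine ⟨by linarith, fun h => ?_⟩
      rcases lt_or_ge s (u c) with h2 | h2
      · have := ih2 h2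
        linarith
      · have hg : u c < u (c + 1) := h2.trans_lt h
        have h3 : tm u v s c < tm u v s' c := by
          unfold tm
          refine mul_lt_mul_of_pos_left ?_ (sub_pos.2 (hlt c hmem hg))
          have hg' : 0 < u (c + 1) - u c := sub_pos.2 hg
          have h4 : (s - u c) / (u (c + 1) - u c) < 1 := (div_lt_one hg').2 (by linarith)
          rw [cl_of_mem (div_nonneg (by linarith) hg'.le) h4.le]
          unfold cl
          refine lt_max_of_lt_right (lt_min ?_ h4)
          exact div_lt_div_of_pos_right (by linarith) hg'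
        linarith
  intro s s' hs
  obtain ⟨h1, h2⟩ := key b hab le_rfl s s' hs
  have h3 : max (s - u b) 0 ≤ max (s' - u b) 0 := max_le_max_right _ (by linarith)
  have h4 := mul_le_mul_of_nonneg_left h3 hτ.le
  unfold Phi
  rcases lt_or_ge s (u b) with h | h
  · have := h2 h
    linarith
  · have h5 : max (s - u b) 0 < max (s' - u b) 0 := by
      rw [max_eq_left (by linarith : 0 ≤ s - u b)]
      exact lt_max_of_lt_left (by linarith)
    have := mul_lt_mul_of_pos_left h5 hτ
    linarith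

theorem abs_tm_le {u v : ℕ → ℝ} {s : ℝ} {i : ℕ} : |tm u v s i| ≤ |v (i + 1) - v i| := by
  unfold tm
  rw [abs_mul, abs_of_nonneg (cl_nonneg _)]
  exact mul_le_of_le_one_right (abs_nonneg _) (cl_le_one _)

theorem abs_Phi_le {a b : ℕ} (hab : a ≤ b) {u v : ℕ → ℝ} {τ s η : ℝ} (hτ0 : 0 ≤ τ) (hτ1 : τ ≤ 1)
    (hu : ∀ i, a ≤ i → i ≤ b → |u i| ≤ η) (hv : ∀ i, a ≤ i → i ≤ b → |v i| ≤ η) (hs : |s| ≤ η) :
    |Phi a b u v τ s| ≤ (5 + 2 * ((b : ℝ) - a)) * η := by
  have hη : 0 ≤ η := (abs_nonneg _).trans hs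
  unfold Phi
  have h1 : |τ * min (s - u a) 0| ≤ 2 * η := by
    rw [abs_mul, abs_of_nonneg hτ0]
    have h2 : |min (s - u a) 0| ≤ 2 * η := by
      have := hu a le_rfl hab
      rw [abs_le] at this hs ⊢
      constructor
      · exact le_min (by linarith) (by linarith)
      · exact (min_le_right _ _).trans (by linarith)
    calc τ * |min (s - u a) 0| ≤ 1 * |min (s - u a) 0| :=
          mul_le_mul_of_nonneg_right hτ1 (abs_nonneg _)
      _ ≤ 2 * η := by rw [one_mul]; exact h2
  have h2 : |τ * max (s - u b) 0| ≤ 2 * η := by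
    rw [abs_mul, abs_of_nonneg hτ0]
    have h2 : |max (s - u b) 0| ≤ 2 * η := by
      have := hu b hab le_rfl
      rw [abs_le] at this hs ⊢
      constructor
      · exact le_trans (by linarith) (le_max_right _ _)
      · exact max_le (by linarith) (by linarith)
    calc τ * |max (s - u b) 0| ≤ 1 * |max (s - u b) 0| :=
          mul_le_mul_of_nonneg_right hτ1 (abs_nonneg _)
      _ ≤ 2 * η := by rw [one_mul]; exact h2
  have h3 : |∑ i ∈ Finset.Ico a b, tm u v s i| ≤ ((b : ℝ) - a) * (2 * η) := by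
    refine (Finset.abs_sum_le_sum_abs _ _).trans ?_
    have : ∀ i ∈ Finset.Ico a b, |tm u v s i| ≤ 2 * η := by
      intro i hi
      rw [Finset.mem_Ico] at hi
      refine abs_tm_le.trans ((abs_sub _ _).trans ?_)
      have := hv i (by omega) (by omega)
      have := hv (i + 1) (by omega) (by omega)
      linarith
    refine (Finset.sum_le_card_nsmul _ _ _ this).trans ?_
    rw [Nat.card_Ico, nsmul_eq_mul, Nat.cast_sub hab]
  have h4 := hv a le_rfl hab
  have h5 := abs_add_three (v a) (τ * min (s - u a) 0) (∑ i ∈ Finset.Ico a b, tm u v s i)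
  have h6 := abs_add_le (v a + τ * min (s - u a) 0 + ∑ i ∈ Finset.Ico a b, tm u v s i)
    (τ * max (s - u b) 0)
  linarith

theorem tendsto_tm {α : Type*} {l : Filter α} {u v : α → ℕ → ℝ} {u0 v0 : ℕ → ℝ} {s : α → ℝ}
    {s0 : ℝ} (i : ℕ) (hu : Tendsto (fun x => u x i) l (𝓝 (u0 i)))
    (hu' : Tendsto (fun x => u x (i + 1)) l (𝓝 (u0 (i + 1))))
    (hv : Tendsto (fun x => v x i) l (𝓝 (v0 i)))
    (hv' : Tendsto (fun x => v x (i + 1)) l (𝓝 (v0 (i + 1)))) (hs : Tendsto s l (𝓝 s0))
    (hc : u0 i = u0 (i + 1) → v0 i = v0 (i + 1)) :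
    Tendsto (fun x => tm (u x) (v x) (s x) i) l (𝓝 (tm u0 v0 s0 i)) := by
  by_cases h : u0 i = u0 (i + 1)
  · have h0 : tm u0 v0 s0 i = 0 := by unfold tm; rw [hc h]; simp
    rw [h0]
    have h1 : Tendsto (fun x => |v x (i + 1) - v x i|) l (𝓝 0) := by
      have := (hv'.sub hv).abs
      rwa [hc h, sub_self, abs_zero] at this
    refine squeeze_zero_norm (fun x => ?_) h1
    rw [Real.norm_eq_abs]
    exact abs_tm_le
  · unfold tm
    refine (hv'.sub hv).mul ((continuous_cl.tendsto _).comp ?_)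
    exact (hs.sub hu).div (hu'.sub hu) (sub_ne_zero.2 (Ne.symm h))

theorem tendsto_Phi {α : Type*} {l : Filter α} {a b : ℕ} {u v : α → ℕ → ℝ} {u0 v0 : ℕ → ℝ}
    {τ s : α → ℝ} {τ0 s0 : ℝ} (hab : a ≤ b)
    (hu : ∀ i, a ≤ i → i ≤ b → Tendsto (fun x => u x i) l (𝓝 (u0 i)))
    (hv : ∀ i, a ≤ i → i ≤ b → Tendsto (fun x => v x i) l (𝓝 (v0 i)))
    (hτ : Tendsto τ l (𝓝 τ0)) (hs : Tendsto s l (𝓝 s0))
    (hc : ∀ i ∈ Finset.Ico a b, u0 i = u0 (i + 1) → v0 i = v0 (i + 1)) :
    Tendsto (fun x => Phi a b (u x) (v x) (τ x) (s x)) l (𝓝 (Phi a b u0 v0 τ0 s0)) := by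
  unfold Phi
  refine Tendsto.add (Tendsto.add (Tendsto.add (hv a le_rfl hab) (hτ.mul ?_)) ?_) (hτ.mul ?_)
  · exact (hs.sub (hu a le_rfl hab)).min tendsto_const_nhds
  · refine tendsto_finsetSum _ fun i hi => ?_
    rw [Finset.mem_Ico] at hi
    exact tendsto_tm i (hu i hi.1 hi.2.le) (hu (i + 1) (by omega) (by omega)) (hv i hi.1 hi.2.le)
      (hv (i + 1) (by omega) (by omega)) hs (hc i (by rw [Finset.mem_Ico]; exact hi))
  · exact (hs.sub (hu b hab le_rfl)).max tendsto_const_nhds

end Groth.Agent.An.H881.Interp
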