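import Groth.Agent.An.H881.Discr
import Mathlib.Topology.Algebra.MvPolynomial
import Mathlib.Topology.Connected.Clopen
import Mathlib.Topology.Order.IntermediateValue

/-!
# Constancy of the pattern along paths which do not change the vanishing of the discriminants
-/

open Polynomial Filter Topology

namespace Groth.Agent.An.H881.Path

open Groth.Agent.An.H881.Enum Groth.Agent.An.H881.Sre Groth.Agent.An.H881.Pattern
  Groth.Agent.An.H881.Discr

/-- a locally constant predicate on a preconnected set is constant -/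
theorem iff_of_locally {S : Set ℝ} (hS : IsPreconnected S) (A : ℝ → Prop)
    (h : ∀ t0 ∈ S, ∀ᶠ t in 𝓝[S] t0, (A t ↔ A t0)) {t t' : ℝ} (ht : t ∈ S) (ht' : t' ∈ S) :
    A t ↔ A t' :=
  hS.induction₂' (fun x y => A x ↔ A y) (fun x hx => (h x hx).mono fun _ hy => ⟨hy.symm, hy⟩)
    (fun _ _ _ _ _ _ h1 h2 => h1.trans h2) ht ht'

variable {n : ℕ}

/-- specialization of the coefficients at a real point -/
noncomputable abbrev Pe (P : (MvPolynomial (Fin n) ℝ)[X]) (x : Fin n → ℝ) : ℝ[X] :=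
  P.map (MvPolynomial.eval x)

/-- sorted real parts of the roots of the specialization at `x` -/
noncomputable def xi (P : (MvPolynomial (Fin n) ℝ)[X]) (x : Fin n → ℝ) : Fin P.natDegree → ℝ :=
  sre P.natDegree (PC (Pe P x))

theorem Pe_monic {P : (MvPolynomial (Fin n) ℝ)[X]} (hP : P.Monic) (x : Fin n → ℝ) :
    (Pe P x).Monic ∧ (Pe P x).natDegree = P.natDegree :=
  ⟨hP.map _, hP.natDegree_map _⟩

theorem PC_Pe_monic {P : (MvPolynomial (Fin n) ℝ)[X]} (hP : P.Monic) (x : Fin n → ℝ) :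
    (PC (Pe P x)).Monic ∧ (PC (Pe P x)).natDegree = P.natDegree :=
  ⟨(hP.map _).map _, by rw [(hP.map _).natDegree_map, hP.natDegree_map]⟩

theorem tendsto_coeff (P : (MvPolynomial (Fin n) ℝ)[X]) {α : Type*} {l : Filter α}
    {y : α → (Fin n → ℝ)} {y0 : Fin n → ℝ} (hy : Tendsto y l (𝓝 y0)) (k : ℕ) :
    Tendsto (fun a => (Pe P (y a)).coeff k) l (𝓝 ((Pe P y0).coeff k)) := by
  simp only [coeff_map]
  exact ((MvPolynomial.continuous_eval (P.coeff k)).tendsto y0).comp hy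

theorem tendsto_xi {P : (MvPolynomial (Fin n) ℝ)[X]} (hP : P.Monic) {α : Type*} {l : Filter α}
    {y : α → (Fin n → ℝ)} {y0 : Fin n → ℝ} (hy : Tendsto y l (𝓝 y0)) :
    Tendsto (fun a => xi P (y a)) l (𝓝 (xi P y0)) := by
  refine tendsto_sre _ _ (Eventually.of_forall fun a => PC_Pe_monic hP (y a)) (PC_Pe_monic hP y0)
    fun k => ?_
  simp only [PC, coeff_map]
  exact (Complex.continuous_ofReal.tendsto _).comp
    (((MvPolynomial.continuous_eval (P.coeff k)).tendsto y0).comp hy)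

theorem xi_mono (P : (MvPolynomial (Fin n) ℝ)[X]) (x : Fin n → ℝ) : Monotone (xi P x) := sre_mono _

/-- every real root of a divisor of `P` is one of the real parts -/
theorem exists_xi_eq {P q : (MvPolynomial (Fin n) ℝ)[X]} (hP : P.Monic) (hq : q ∣ P)
    {x : Fin n → ℝ} {s : ℝ} (hs : (Pe q x).eval s = 0) : ∃ j, xi P x j = s := by
  obtain ⟨v, hv⟩ := exists_isEnum _ (PC_Pe_monic hP x).1 (PC_Pe_monic hP x).2
  refine exists_sre_eq_of_root hv ?_
  obtain ⟨r, rfl⟩ := hq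
  have h1 : (Pe (q * r) x).eval s = 0 := by
    rw [Pe, Polynomial.map_mul, eval_mul, hs, zero_mul]
  have h2 : (PC (Pe (q * r) x)).eval (s : ℂ) = (((Pe (q * r) x).eval s : ℝ) : ℂ) := by
    rw [eval_map_algebraMap]
    exact (Polynomial.aeval_algebraMap_apply_eq_algebraMap_eval (A := ℂ) _ _)
  rw [h2, h1, Complex.ofReal_zero]

/-- `D` detects the number of distinct sums of two roots of `P` -/
def Detects (P : (MvPolynomial (Fin n) ℝ)[X]) (D : Finset (MvPolynomial (Fin n) ℝ)) : Prop :=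
  ∀ x y : Fin n → ℝ, (∀ d ∈ D, MvPolynomial.eval x d = 0 ↔ MvPolynomial.eval y d = 0) →
    ∀ v w : Fin P.natDegree → ℂ, IsEnum (PC (Pe P x)) v → IsEnum (PC (Pe P y)) w → nS v = nS w

theorem exists_detects (P : (MvPolynomial (Fin n) ℝ)[X]) : ∃ D, Detects P D := by
  obtain ⟨D, hD⟩ := exists_discr P.natDegree P
  exact ⟨D, fun x y h => hD _ _ h⟩

section

variable {P : (MvPolynomial (Fin n) ℝ)[X]} (hP : P.Monic) {D : Finset (MvPolynomial (Fin n) ℝ)}
  (hD : Detects P D) {S : Set ℝ} (hS : IsPreconnected S) {γ : ℝ → (Fin n → ℝ)}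
  (hγ : ContinuousOn γ S)
  (hpat : ∀ t ∈ S, ∀ t' ∈ S, ∀ d ∈ D, MvPolynomial.eval (γ t) d = 0 ↔ MvPolynomial.eval (γ t') d = 0)

include hP hD hS hγ hpat

theorem xi_eq_iff {t t' : ℝ} (ht : t ∈ S) (ht' : t' ∈ S) (i j : Fin P.natDegree) :
    xi P (γ t) i = xi P (γ t) j ↔ xi P (γ t') i = xi P (γ t') j := by
  refine iff_of_locally hS (fun t => xi P (γ t) i = xi P (γ t) j) (fun t0 ht0 => ?_) ht ht'
  obtain ⟨v0, hv0⟩ := exists_isEnum _ (PC_Pe_monic hP (γ t0)).1 (PC_Pe_monic hP (γ t0)).2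
  have h1 := eventually_sre_eq_iff (l := 𝓝[S] t0) (p := fun t => Pe P (γ t)) (p0 := Pe P (γ t0))
    (Eventually.of_forall fun t => Pe_monic hP (γ t)) (fun k => tendsto_coeff P (hγ t0 ht0) k) hv0
    (by
      filter_upwards [self_mem_nhdsWithin] with t ht v hv
      exact hD _ _ (hpat t ht t0 ht0) v v0 hv hv0)
  filter_upwards [h1] with t ht
  exact ht i j

theorem root_iff {q : (MvPolynomial (Fin n) ℝ)[X]} (hq : q.Monic) (hqP : q ∣ P) {t t' : ℝ}
    (ht : t ∈ S) (ht' : t' ∈ S) (j : Fin P.natDegree) :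
    (Pe q (γ t)).eval (xi P (γ t) j) = 0 ↔ (Pe q (γ t')).eval (xi P (γ t') j) = 0 := by
  refine iff_of_locally hS (fun t => (Pe q (γ t)).eval (xi P (γ t) j) = 0) (fun t0 ht0 => ?_) ht ht'
  obtain ⟨v0, hv0⟩ := exists_isEnum _ (PC_Pe_monic hP (γ t0)).1 (PC_Pe_monic hP (γ t0)).2
  by_cases h0 : (Pe q (γ t0)).eval (xi P (γ t0) j) = 0
  · have h1 := eventually_root (l := 𝓝[S] t0) (p := fun t => Pe P (γ t)) (p0 := Pe P (γ t0))
      (Eventually.of_forall fun t => Pe_monic hP (γ t)) (fun k => tendsto_coeff P (hγ t0 ht0) k) hv0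
      (by
        filter_upwards [self_mem_nhdsWithin] with t ht v hv
        exact hD _ _ (hpat t ht t0 ht0) v v0 hv hv0) (d := q.natDegree)
      (q := fun t => Pe q (γ t)) (q0 := Pe q (γ t0))
      (Eventually.of_forall fun t => ⟨(Pe_monic hq (γ t)).1, (Pe_monic hq (γ t)).2, by
        obtain ⟨r, rfl⟩ := hqP
        rw [Pe, Pe, Polynomial.map_mul]
        exact dvd_mul_right _ _⟩) (Pe_monic hq (γ t0)).2 (fun k => tendsto_coeff q (hγ t0 ht0) k) h0
    filter_upwards [h1] with t ht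
    exact ⟨fun _ => h0, fun _ => ht⟩
  · -- openness of non-vanishing by continuity
    have hc : Tendsto (fun t => (Pe q (γ t)).eval (xi P (γ t) j)) (𝓝[S] t0)
        (𝓝 ((Pe q (γ t0)).eval (xi P (γ t0) j))) := by
      have h2 : ∀ t, (Pe q (γ t)).eval (xi P (γ t) j) =
          ∑ k ∈ Finset.range (q.natDegree + 1), (Pe q (γ t)).coeff k * (xi P (γ t) j) ^ k := by
        intro t
        rw [eval_eq_sum_range, (Pe_monic hq (γ t)).2]
      simp only [h2]
      refine tendsto_finsetSum _ fun k _ => (tendsto_coeff q (hγ t0 ht0) k).mul (Tendsto.pow ?_ k)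
      exact (tendsto_pi_nhds.1 (tendsto_xi hP (hγ t0 ht0))) j
    filter_upwards [hc.eventually_ne h0] with t ht
    exact ⟨fun h => absurd h ht, fun h => absurd h h0⟩

end

end Groth.Agent.An.H881.Path
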