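import Groth.Agent.An.H881.Sre

/-!
# Stability of the pattern of the real parts of the roots

If the number of distinct values of `λ_i + λ_j` (sums of two roots of a monic real polynomial) is
constant near a point then the pattern of coincidences of the sorted real parts, and the property of a
real part to be a root of a monic factor, are constant near the point.
-/

open Polynomial Filter Topology

namespace Groth.Agent.An.H881.Pattern

open Groth.Agent.An.H881.Enum Groth.Agent.An.H881.Sre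

/-- the complexification of a real polynomial -/
noncomputable abbrev PC (p : ℝ[X]) : ℂ[X] := p.map (algebraMap ℝ ℂ)

/-- sum of two entries -/
def mu {m : ℕ} (v : Fin m → ℂ) (a : Fin m × Fin m) : ℂ := v a.1 + v a.2

open Classical in
/-- the number of distinct values of `v i + v j` -/
noncomputable def nS {m : ℕ} (v : Fin m → ℂ) : ℕ := (Finset.univ.image (mu v)).card

theorem mu_eq_of_near {m : ℕ} {v v0 : Fin m → ℂ} {ε : ℝ} (hε : ∀ i, ‖v i - v0 i‖ < ε)
    (hgap : ∀ a b, mu v0 a ≠ mu v0 b → 4 * ε ≤ ‖mu v0 a - mu v0 b‖) {a b : Fin m × Fin m}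
    (h : mu v a = mu v b) : mu v0 a = mu v0 b := by
  by_contra hne
  have h1 := hgap a b hne
  have h2 : mu v0 a - mu v0 b =
      -((v a.1 - v0 a.1) + (v a.2 - v0 a.2)) + ((v b.1 - v0 b.1) + (v b.2 - v0 b.2)) := by
    have : v a.1 + v a.2 = v b.1 + v b.2 := h
    unfold mu
    linear_combination this
  rw [h2] at h1
  have h3 := norm_add_le (-((v a.1 - v0 a.1) + (v a.2 - v0 a.2)))
    ((v b.1 - v0 b.1) + (v b.2 - v0 b.2))
  rw [norm_neg] at h3
  have h4 := norm_add_le (v a.1 - v0 a.1) (v a.2 - v0 a.2)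
  have h5 := norm_add_le (v b.1 - v0 b.1) (v b.2 - v0 b.2)
  have := hε a.1
  have := hε a.2
  have := hε b.1
  have := hε b.2
  linarith

theorem mu_eq_iff {m : ℕ} {v v0 : Fin m → ℂ} {ε : ℝ} (hε : ∀ i, ‖v i - v0 i‖ < ε)
    (hgap : ∀ a b, mu v0 a ≠ mu v0 b → 4 * ε ≤ ‖mu v0 a - mu v0 b‖) (hN : nS v = nS v0)
    (a b : Fin m × Fin m) : mu v a = mu v b ↔ mu v0 a = mu v0 b := by
  classical
  refine ⟨mu_eq_of_near hε hgap, fun h => ?_⟩
  have hf : ∃ φ : ℂ → ℂ, ∀ a, φ (mu v a) = mu v0 a := by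
    refine ⟨fun z => if h : ∃ a, mu v a = z then mu v0 h.choose else 0, fun a => ?_⟩
    have hex : ∃ b, mu v b = mu v a := ⟨a, rfl⟩
    simp only [dif_pos hex]
    exact mu_eq_of_near hε hgap hex.choose_spec
  obtain ⟨φ, hφ⟩ := hf
  have himg : Finset.univ.image (mu v0) = (Finset.univ.image (mu v)).image φ := by
    rw [Finset.image_image]
    exact Finset.image_congr fun a _ => (hφ a).symm
  have hcard : ((Finset.univ.image (mu v)).image φ).card = (Finset.univ.image (mu v)).card := by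
    rw [← himg]; exact hN.symm
  have hinj := Finset.card_image_iff.1 hcard
  refine hinj (by simp) (by simp) ?_
  rw [hφ, hφ, h]

theorem eval_conj (p : ℝ[X]) (z : ℂ) :
    (PC p).eval ((starRingEnd ℂ) z) = (starRingEnd ℂ) ((PC p).eval z) := by
  rw [eval_map_algebraMap, eval_map_algebraMap, Polynomial.aeval_conj]

theorem exists_conj {m : ℕ} {p : ℝ[X]} {v : Fin m → ℂ} (h : IsEnum (PC p) v) (i : Fin m) :
    ∃ k, (starRingEnd ℂ) (v i) = v k := by
  rw [← h.eval_eq_zero_iff, eval_conj, (h.eval_eq_zero_iff _).2 ⟨i, rfl⟩, map_zero]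

section

variable {m : ℕ} {p p0 : ℝ[X]} {v v0 : Fin m → ℂ} (hv : IsEnum (PC p) v) (hv0 : IsEnum (PC p0) v0)
  {ε : ℝ} (hε : ∀ i, ‖v i - v0 i‖ < ε)
  (hgap : ∀ a b, mu v0 a ≠ mu v0 b → 4 * ε ≤ ‖mu v0 a - mu v0 b‖) (hN : nS v = nS v0)

include hv hv0 hε hgap hN

theorem exists_sigma (i : Fin m) :
    ∃ k, (starRingEnd ℂ) (v0 i) = v0 k ∧ (starRingEnd ℂ) (v i) = v k := by
  obtain ⟨k0, hk0⟩ := exists_conj hv0 i
  obtain ⟨k, hk⟩ := exists_conj hv i
  refine ⟨k0, hk0, ?_⟩
  have h1 : mu v0 (k, k) = mu v0 (k0, k0) := by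
    by_contra hne
    have h2 := hgap _ _ hne
    have h3 : mu v0 (k, k) - mu v0 (k0, k0) =
        2 * (-(v k - v0 k) + (starRingEnd ℂ) (v i - v0 i)) := by
      rw [map_sub, hk, hk0]
      unfold mu
      ring
    rw [h3, norm_mul, Complex.norm_ofNat] at h2
    have h4 := norm_add_le (-(v k - v0 k)) ((starRingEnd ℂ) (v i - v0 i))
    rw [norm_neg, Complex.norm_conj] at h4
    have := hε k
    have := hε i
    linarith
  have h2 := (mu_eq_iff hε hgap hN (k, k) (k0, k0)).2 h1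
  have h3 : v k = v k0 := by
    have : v k + v k = v k0 + v k0 := h2
    linear_combination this / 2
  rw [hk, h3]

theorem re_eq_iff (i j : Fin m) : (v i).re = (v j).re ↔ (v0 i).re = (v0 j).re := by
  obtain ⟨i', hi0, hi⟩ := exists_sigma hv hv0 hε hgap hN i
  obtain ⟨j', hj0, hj⟩ := exists_sigma hv hv0 hε hgap hN j
  have key : ∀ (w : Fin m → ℂ) (a b : Fin m), (starRingEnd ℂ) (w a) = w b →
      mu w (a, b) = ((2 * (w a).re : ℝ) : ℂ) := by
    intro w a b hab
    change w a + w b = _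
    rw [← hab, Complex.add_conj]
  have h1 := mu_eq_iff hε hgap hN (i, i') (j, j')
  rw [key v i i' hi, key v j j' hj, key v0 i i' hi0, key v0 j j' hj0] at h1
  rw [Complex.ofReal_inj, Complex.ofReal_inj] at h1
  constructor
  · intro h
    have := h1.1 (by rw [h])
    linarith
  · intro h
    have := h1.2 (by rw [h])
    linarith

theorem re_lt_of_lt {i j : Fin m} (h : (v0 i).re < (v0 j).re) : (v i).re < (v j).re := by
  obtain ⟨i', hi0, -⟩ := exists_sigma hv hv0 hε hgap hN i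
  obtain ⟨j', hj0, -⟩ := exists_sigma hv hv0 hε hgap hN j
  have key : ∀ (w : Fin m → ℂ) (a b : Fin m), (starRingEnd ℂ) (w a) = w b →
      mu w (a, b) = ((2 * (w a).re : ℝ) : ℂ) := by
    intro w a b hab
    change w a + w b = _
    rw [← hab, Complex.add_conj]
  have hne : mu v0 (i, i') ≠ mu v0 (j, j') := by
    rw [key v0 i i' hi0, key v0 j j' hj0]
    intro h'
    rw [Complex.ofReal_inj] at h'
    linarith
  have h1 := hgap _ _ hne
  rw [key v0 i i' hi0, key v0 j j' hj0, ← Complex.ofReal_sub, Complex.norm_real, Real.norm_eq_abs,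
    abs_of_neg (by linarith)] at h1
  have h2 : |(v i - v0 i).re| < ε := (Complex.abs_re_le_norm _).trans_lt (hε i)
  have h3 : |(v j - v0 j).re| < ε := (Complex.abs_re_le_norm _).trans_lt (hε j)
  rw [Complex.sub_re, abs_lt] at h2 h3
  linarith [h2.1, h2.2, h3.1, h3.2]

/-- a common permutation sorts both lists of real parts -/
theorem exists_sort : ∃ τ : Equiv.Perm (Fin m), (∀ j, sre m (PC p) j = (v (τ j)).re) ∧
    ∀ j, sre m (PC p0) j = (v0 (τ j)).re := by
  refine ⟨Tuple.sort fun i => (v0 i).re, ?_, ?_⟩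
  · have hmono : Monotone ((fun i => (v i).re) ∘ Tuple.sort fun i => (v0 i).re) := by
      intro i j hij
      have h := Tuple.monotone_sort (fun i => (v0 i).re) hij
      simp only [Function.comp_apply] at h ⊢
      rcases h.eq_or_lt with h | h
      · exact ((re_eq_iff hv hv0 hε hgap hN _ _).2 h).le
      · exact (re_lt_of_lt hv hv0 hε hgap hN h).le
    intro j
    rw [sre_eq hv, srt_eq_of_monotone hmono]
    rfl
  · intro j
    rw [sre_eq hv0]
    rfl

theorem sre_eq_iff (i j : Fin m) :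
    sre m (PC p) i = sre m (PC p) j ↔ sre m (PC p0) i = sre m (PC p0) j := by
  obtain ⟨τ, h1, h2⟩ := exists_sort hv hv0 hε hgap hN
  rw [h1, h1, h2, h2]
  exact re_eq_iff hv hv0 hε hgap hN _ _

theorem eq_sre_of_root {z : ℂ} (hz : (PC p).eval z = 0) {j : Fin m}
    (hzj : ‖z - (sre m (PC p0) j : ℝ)‖ < ε) : z = (sre m (PC p) j : ℝ) := by
  obtain ⟨τ, h1, h2⟩ := exists_sort hv hv0 hε hgap hN
  obtain ⟨k, rfl⟩ := (hv.eval_eq_zero_iff z).1 hz
  obtain ⟨j', hj0, hj⟩ := exists_sigma hv hv0 hε hgap hN (τ j)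
  have key : ∀ (w : Fin m → ℂ) (a b : Fin m), (starRingEnd ℂ) (w a) = w b →
      mu w (a, b) = 2 * (((w a).re : ℝ) : ℂ) := by
    intro w a b hab
    change w a + w b = _
    rw [← hab, Complex.add_conj]
    push_cast
    ring
  have h3 : mu v0 (k, k) = mu v0 (τ j, j') := by
    by_contra hne
    have h4 := hgap _ _ hne
    rw [key v0 _ _ hj0, ← h2 j] at h4
    have h5 : mu v0 (k, k) - 2 * ((sre m (PC p0) j : ℝ) : ℂ) =
        2 * (-(v k - v0 k) + (v k - ((sre m (PC p0) j : ℝ) : ℂ))) := by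
      unfold mu
      ring
    rw [h5, norm_mul, Complex.norm_ofNat] at h4
    have h6 := norm_add_le (-(v k - v0 k)) (v k - ((sre m (PC p0) j : ℝ) : ℂ))
    rw [norm_neg] at h6
    have := hε k
    linarith
  have h4 := (mu_eq_iff hε hgap hN _ _).2 h3
  rw [key v _ _ hj, ← h1 j] at h4
  have h5 : v k + v k = 2 * ((sre m (PC p) j : ℝ) : ℂ) := h4
  linear_combination h5 / 2

end

theorem exists_gap {m : ℕ} (v0 : Fin m → ℂ) :
    ∃ ε : ℝ, 0 < ε ∧ ∀ a b, mu v0 a ≠ mu v0 b → 4 * ε ≤ ‖mu v0 a - mu v0 b‖ := by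
  classical
  have h : ∀ c ∈ (Finset.univ : Finset ((Fin m × Fin m) × (Fin m × Fin m))),
      ∃ ε : ℝ, 0 < ε ∧ ∀ ε' ≤ ε, mu v0 c.1 ≠ mu v0 c.2 → 4 * ε' ≤ ‖mu v0 c.1 - mu v0 c.2‖ := by
    intro c _
    by_cases hc : mu v0 c.1 = mu v0 c.2
    · exact ⟨1, one_pos, fun _ _ h => absurd hc h⟩
    · refine ⟨‖mu v0 c.1 - mu v0 c.2‖ / 4, ?_, fun ε' hε' _ => by linarith⟩
      have : 0 < ‖mu v0 c.1 - mu v0 c.2‖ := norm_pos_iff.2 (sub_ne_zero.2 hc)
      linarith
  choose! f hf using h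
  rcases (Finset.univ : Finset ((Fin m × Fin m) × (Fin m × Fin m))).eq_empty_or_nonempty with he | hne
  · exact ⟨1, one_pos, fun a b => absurd (Finset.mem_univ (a, b)) (by rw [he]; simp)⟩
  · obtain ⟨c, hc, hmin⟩ := Finset.exists_min_image Finset.univ f hne
    exact ⟨f c, (hf c hc).1, fun a b hab => (hf (a, b) (Finset.mem_univ _)).2 _
      (hmin (a, b) (Finset.mem_univ _)) hab⟩

/-- a monic polynomial which is small at a point has a root near that point -/
theorem exists_root_near {q : ℂ[X]} (hq : q.Monic) {z : ℂ} {ε : ℝ} (hε : 0 < ε)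
    (h : ‖q.eval z‖ < ε ^ q.natDegree) : ∃ w, q.eval w = 0 ∧ ‖w - z‖ < ε := by
  obtain ⟨v, hv⟩ := exists_isEnum q hq rfl
  by_contra hcon
  push Not at hcon
  rw [hv.eval, norm_prod] at h
  have : ε ^ q.natDegree ≤ ∏ i, ‖z - v i‖ := by
    have h1 : ∏ _i : Fin q.natDegree, ε ≤ ∏ i, ‖z - v i‖ := by
      refine Finset.prod_le_prod (fun _ _ => hε.le) fun i _ => ?_
      rw [norm_sub_rev]
      exact hcon (v i) ((hv.eval_eq_zero_iff _).2 ⟨i, rfl⟩)
    simpa using h1
  exact absurd h (not_lt.2 this)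

section

variable {α : Type*} {l : Filter α} {m : ℕ} {p : α → ℝ[X]} {p0 : ℝ[X]}
  (hp : ∀ᶠ x in l, (p x).Monic ∧ (p x).natDegree = m)
  (hc : ∀ k, Tendsto (fun x => (p x).coeff k) l (𝓝 (p0.coeff k))) {v0 : Fin m → ℂ}
  (h0 : IsEnum (PC p0) v0)
  (hN : ∀ᶠ x in l, ∀ v : Fin m → ℂ, IsEnum (PC (p x)) v → nS v = nS v0)

include hp hc h0 hN

theorem eventually_near {ε : ℝ} (hε : 0 < ε) :
    ∀ᶠ x in l, ∃ v : Fin m → ℂ, IsEnum (PC (p x)) v ∧ (∀ i, ‖v i - v0 i‖ < ε) ∧ nS v = nS v0 := by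
  have h1 := eventually_isEnum (l := l) (fun x => PC (p x)) (PC p0)
    (hp.mono fun x hx => ⟨hx.1.map _, by rw [natDegree_map_eq_of_injective Complex.ofReal_injective]; exact hx.2⟩)
    (fun k => by
      simp only [PC, coeff_map]
      exact (Complex.continuous_ofReal.tendsto _).comp (hc k)) v0 h0 hε
  filter_upwards [h1, hN] with x ⟨v, hv, hvε⟩ hx
  exact ⟨v, hv, hvε, hx v hv⟩

theorem eventually_sre_eq_iff :
    ∀ᶠ x in l, ∀ i j, sre m (PC (p x)) i = sre m (PC (p x)) j ↔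
      sre m (PC p0) i = sre m (PC p0) j := by
  obtain ⟨ε, hε, hgap⟩ := exists_gap v0
  filter_upwards [eventually_near hp hc h0 hN hε] with x ⟨v, hv, hvε, hx⟩ i j
  exact sre_eq_iff hv h0 hvε hgap hx i j

theorem eventually_root {d : ℕ} {q : α → ℝ[X]} {q0 : ℝ[X]}
    (hq : ∀ᶠ x in l, (q x).Monic ∧ (q x).natDegree = d ∧ q x ∣ p x) (hq0 : q0.natDegree = d)
    (hqc : ∀ k, Tendsto (fun x => (q x).coeff k) l (𝓝 (q0.coeff k))) {j : Fin m}
    (hroot : q0.eval (sre m (PC p0) j) = 0) :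
    ∀ᶠ x in l, (q x).eval (sre m (PC (p x)) j) = 0 := by
  obtain ⟨ε, hε, hgap⟩ := exists_gap v0
  set s0 : ℝ := sre m (PC p0) j with hs0
  have hev : Tendsto (fun x => (PC (q x)).eval (s0 : ℂ)) l (𝓝 ((PC q0).eval (s0 : ℂ))) := by
    refine tendsto_eval (m := d) (hq.mono fun x hx => ?_) ?_ (fun k => ?_) _
    · rw [natDegree_map_eq_of_injective Complex.ofReal_injective]; exact hx.2.1
    · rw [natDegree_map_eq_of_injective Complex.ofReal_injective]; exact hq0
    · simp only [PC, coeff_map]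
      exact (Complex.continuous_ofReal.tendsto _).comp (hqc k)
  have hz : (PC q0).eval (s0 : ℂ) = 0 := by
    have : (PC q0).eval (s0 : ℂ) = ((q0.eval s0 : ℝ) : ℂ) := by
      rw [eval_map_algebraMap]
      exact (Polynomial.aeval_algebraMap_apply_eq_algebraMap_eval (A := ℂ) s0 q0)
    rw [this, hroot, Complex.ofReal_zero]
  rw [hz] at hev
  have hsmall := hev.norm
  rw [norm_zero] at hsmall
  have hsm := hsmall.eventually (gt_mem_nhds (pow_pos hε d))
  filter_upwards [eventually_near hp hc h0 hN hε, hq, hsm] with x ⟨v, hv, hvε, hx⟩ hqx hsmx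
  obtain ⟨w, hw, hws⟩ := exists_root_near (hqx.1.map (algebraMap ℝ ℂ)) (z := (s0 : ℂ)) hε (by
    rw [natDegree_map_eq_of_injective (f := algebraMap ℝ ℂ) Complex.ofReal_injective, hqx.2.1]; exact hsmx)
  have hpw : (PC (p x)).eval w = 0 := by
    obtain ⟨r, hr⟩ := hqx.2.2
    have : PC (p x) = PC (q x) * PC r := by rw [hr, PC, Polynomial.map_mul]
    rw [this, eval_mul, hw, zero_mul]
  have h1 := eq_sre_of_root hv h0 hvε hgap hx hpw (j := j) hws
  have h2 : (PC (q x)).eval ((sre m (PC (p x)) j : ℝ) : ℂ) = 0 := by rw [← h1]; exact hw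
  have h3 : (PC (q x)).eval ((sre m (PC (p x)) j : ℝ) : ℂ) =
      (((q x).eval (sre m (PC (p x)) j) : ℝ) : ℂ) := by
    rw [eval_map_algebraMap]
    exact (Polynomial.aeval_algebraMap_apply_eq_algebraMap_eval (A := ℂ) _ _)
  rw [h3] at h2
  exact Complex.ofReal_eq_zero.1 h2

end

end Groth.Agent.An.H881.Pattern
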