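import Groth.Agent.An.H881.Enum
import Mathlib.Data.Fin.Tuple.Sort

/-!
# The sorted real parts of the roots of a monic complex polynomial
-/

open Polynomial Filter Topology

namespace Groth.Agent.An.H881.Sre

open Groth.Agent.An.H881.Enum

/-- a tuple of reals, sorted increasingly -/
noncomputable def srt {m : ℕ} (f : Fin m → ℝ) : Fin m → ℝ := f ∘ Tuple.sort f

theorem srt_mono {m : ℕ} (f : Fin m → ℝ) : Monotone (srt f) := Tuple.monotone_sort f

theorem srt_comp {m : ℕ} (f : Fin m → ℝ) (σ : Equiv.Perm (Fin m)) : srt (f ∘ σ) = srt f :=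
  Tuple.comp_perm_comp_sort_eq_comp_sort

theorem srt_eq_of_monotone {m : ℕ} {f : Fin m → ℝ} {σ : Equiv.Perm (Fin m)} (h : Monotone (f ∘ σ)) :
    srt f = f ∘ σ :=
  Tuple.unique_monotone (Tuple.monotone_sort f) h

theorem srt_le_of_le_add {m : ℕ} {f g : Fin m → ℝ} {ε : ℝ} (h : ∀ i, f i ≤ g i + ε) (j : Fin m) :
    srt f j ≤ srt g j + ε := by
  classical
  rw [← Tuple.lt_card_le_iff_apply_le_of_monotone (srt_mono f)]
  have h1 : (j : ℕ) < (Finset.univ.filter fun i => srt g i ≤ srt g j).card :=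
    (Tuple.lt_card_le_iff_apply_le_of_monotone (srt_mono g)).2 le_rfl
  refine h1.trans_le ?_
  have hg : (Finset.univ.filter fun i => srt g i ≤ srt g j).card =
      (Finset.univ.filter fun i => g i ≤ srt g j).card := by
    refine Finset.card_bij (fun i _ => Tuple.sort g i) ?_ ?_ ?_
    · intro i hi
      simp only [Finset.mem_filter, Finset.mem_univ, true_and] at hi ⊢
      exact hi
    · intro i _ i' _ hii; exact (Tuple.sort g).injective hii
    · intro i hi
      exact ⟨(Tuple.sort g).symm i, by simpa [srt] using hi, by simp⟩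
  have hf : (Finset.univ.filter fun i => srt f i ≤ srt g j + ε).card =
      (Finset.univ.filter fun i => f i ≤ srt g j + ε).card := by
    refine Finset.card_bij (fun i _ => Tuple.sort f i) ?_ ?_ ?_
    · intro i hi
      simp only [Finset.mem_filter, Finset.mem_univ, true_and] at hi ⊢
      exact hi
    · intro i _ i' _ hii; exact (Tuple.sort f).injective hii
    · intro i hi
      exact ⟨(Tuple.sort f).symm i, by simpa [srt] using hi, by simp⟩
  rw [hg, hf]
  refine Finset.card_le_card fun i hi => ?_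
  simp only [Finset.mem_filter, Finset.mem_univ, true_and] at hi ⊢
  exact (h i).trans (by linarith)

theorem abs_srt_sub_le {m : ℕ} {f g : Fin m → ℝ} {ε : ℝ} (h : ∀ i, |f i - g i| ≤ ε) (j : Fin m) :
    |srt f j - srt g j| ≤ ε := by
  rw [abs_le]
  constructor
  · have := srt_le_of_le_add (f := g) (g := f) (ε := ε)
      (fun i => by have := (abs_le.1 (h i)).1; linarith) j
    linarith
  · have := srt_le_of_le_add (f := f) (g := g) (ε := ε)
      (fun i => by have := (abs_le.1 (h i)).2; linarith) j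
    linarith

open Classical in
/-- the sorted real parts of the `m` roots of a monic polynomial of degree `m` -/
noncomputable def sre (m : ℕ) (p : ℂ[X]) : Fin m → ℝ :=
  if h : ∃ v : Fin m → ℂ, IsEnum p v then srt (fun i => (h.choose i).re) else 0

theorem sre_eq {m : ℕ} {p : ℂ[X]} {v : Fin m → ℂ} (h : IsEnum p v) :
    sre m p = srt (fun i => (v i).re) := by
  have hex : ∃ v : Fin m → ℂ, IsEnum p v := ⟨v, h⟩
  unfold sre
  rw [dif_pos hex]
  obtain ⟨σ, hσ⟩ := hex.choose_spec.exists_perm h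
  have : (fun i => (v i).re) = (fun i => (hex.choose i).re) ∘ σ := by
    funext i
    rw [← hσ]; rfl
  rw [this, srt_comp]

theorem sre_mono {m : ℕ} (p : ℂ[X]) : Monotone (sre m p) := by
  unfold sre
  split_ifs
  · exact srt_mono _
  · exact monotone_const

theorem exists_sre_eq {m : ℕ} {p : ℂ[X]} {v : Fin m → ℂ} (h : IsEnum p v) (i : Fin m) :
    ∃ j, sre m p j = (v i).re := by
  rw [sre_eq h]
  exact ⟨(Tuple.sort fun i => (v i).re).symm i, by simp [srt]⟩

/-- every real root occurs among the sorted real parts -/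
theorem exists_sre_eq_of_root {m : ℕ} {p : ℂ[X]} {v : Fin m → ℂ} (h : IsEnum p v) {s : ℝ}
    (hs : p.eval (s : ℂ) = 0) : ∃ j, sre m p j = s := by
  obtain ⟨i, hi⟩ := (h.eval_eq_zero_iff _).1 hs
  obtain ⟨j, hj⟩ := exists_sre_eq h i
  exact ⟨j, by rw [hj, ← hi, Complex.ofReal_re]⟩

theorem tendsto_sre {α : Type*} {l : Filter α} {m : ℕ} (P : α → ℂ[X]) (P0 : ℂ[X])
    (hP : ∀ᶠ x in l, (P x).Monic ∧ (P x).natDegree = m) (hP0 : P0.Monic ∧ P0.natDegree = m)
    (hc : ∀ k, Tendsto (fun x => (P x).coeff k) l (𝓝 (P0.coeff k))) :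
    Tendsto (fun x => sre m (P x)) l (𝓝 (sre m P0)) := by
  obtain ⟨v0, hv0⟩ := exists_isEnum P0 hP0.1 hP0.2
  rw [tendsto_pi_nhds]
  intro j
  rw [Metric.tendsto_nhds]
  intro ε hε
  filter_upwards [eventually_isEnum P P0 hP hc v0 hv0 (half_pos hε)] with x ⟨v, hv, hvε⟩
  rw [sre_eq hv, sre_eq hv0, Real.dist_eq]
  refine (abs_srt_sub_le (ε := ε / 2) (fun i => ?_) j).trans_lt (half_lt_self hε)
  rw [← Complex.sub_re]
  exact (Complex.abs_re_le_norm _).trans (hvε i).le

end Groth.Agent.An.H881.Sre
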