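import Groth.Agent.An.H881.Path
import Groth.Agent.An.H881.Interp
import Mathlib.Topology.Compactness.Compact

/-!
# The inductive step of the contraction theorem, in product coordinates
-/

open Polynomial Filter Topology Set

namespace Groth.Agent.An.H881.Step

open Groth.Agent.An.H881.Enum Groth.Agent.An.H881.Sre Groth.Agent.An.H881.Pattern
  Groth.Agent.An.H881.Discr Groth.Agent.An.H881.Path Groth.Agent.An.H881.Interp

/-- The contraction statement: there is a local contraction of `ℝ^n` to `0` which preserves, for `t < 1`,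
the vanishing of the polynomials in `F`. -/
def Contr (n : ℕ) (F : Finset (MvPolynomial (Fin n) ℝ)) : Prop :=
  ∃ U ∈ 𝓝 (0 : Fin n → ℝ), ∃ h : ℝ → (Fin n → ℝ) → (Fin n → ℝ),
    ContinuousOn (Function.uncurry h) (Icc (0 : ℝ) 1 ×ˢ U) ∧ (∀ x ∈ U, h 0 x = x) ∧
    (∀ x ∈ U, h 1 x = 0) ∧ (∀ t ∈ Icc (0 : ℝ) 1, h t 0 = 0) ∧
    ∀ t ∈ Ico (0 : ℝ) 1, ∀ x ∈ U, ∀ f ∈ F,
      (MvPolynomial.eval (h t x) f = 0 ↔ MvPolynomial.eval x f = 0)

/-- The same, in product coordinates, for monic polynomials in the last variable. -/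
def ContrProd (n : ℕ) (Q : Finset ((MvPolynomial (Fin n) ℝ)[X])) : Prop :=
  ∃ U ∈ 𝓝 (0 : (Fin n → ℝ) × ℝ), ∃ h : ℝ → (Fin n → ℝ) × ℝ → (Fin n → ℝ) × ℝ,
    ContinuousOn (Function.uncurry h) (Icc (0 : ℝ) 1 ×ˢ U) ∧ (∀ x ∈ U, h 0 x = x) ∧
    (∀ x ∈ U, h 1 x = 0) ∧ (∀ t ∈ Icc (0 : ℝ) 1, h t 0 = 0) ∧
    ∀ t ∈ Ico (0 : ℝ) 1, ∀ x ∈ U, ∀ q ∈ Q,
      ((Pe q (h t x).1).eval (h t x).2 = 0 ↔ (Pe q x.1).eval x.2 = 0)

/-- tube lemma for the trajectories through points near `0` -/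
theorem eventually_traj {E : Type*} [TopologicalSpace E] {U : Set E} {x0 : E} (hU : U ∈ 𝓝 x0)
    {h : ℝ → E → E} (hc : ContinuousOn (Function.uncurry h) (Icc (0 : ℝ) 1 ×ˢ U))
    (h0 : ∀ t ∈ Icc (0 : ℝ) 1, h t x0 = x0) {W : Set E} (hW : W ∈ 𝓝 x0) :
    ∀ᶠ x in 𝓝 x0, ∀ t ∈ Icc (0 : ℝ) 1, h t x ∈ W := by
  have h1 : ∀ᶠ x in 𝓝 x0, ∀ t ∈ Icc (0 : ℝ) 1, (x ∈ U → h t x ∈ W) := by
    have h2 : ∀ᶠ x in 𝓝 x0, ∀ t ∈ Icc (0 : ℝ) 1, (t ∈ Icc (0 : ℝ) 1 ∧ x ∈ U → h t x ∈ W) := by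
      refine isCompact_Icc.eventually_forall_of_forall_eventually fun t ht => ?_
      have h3 := hc (t, x0) ⟨ht, mem_of_mem_nhds hU⟩
      have h4 : ∀ᶠ z : ℝ × E in 𝓝[Icc (0 : ℝ) 1 ×ˢ U] (t, x0), h z.1 z.2 ∈ W :=
        h3.eventually_mem (by
          change W ∈ 𝓝 (h t x0)
          rw [h0 t ht]; exact hW)
      rw [eventually_nhdsWithin_iff] at h4
      have h5 := (continuous_swap.tendsto (x0, t)).eventually h4
      filter_upwards [h5] with z hz hz'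
      exact hz ⟨hz'.1, hz'.2⟩
    filter_upwards [h2] with x hx t ht hxU
    exact hx t ht ⟨ht, hxU⟩
  filter_upwards [h1, hU] with x hx hxU t ht
  exact hx t ht hxU

/-- extension of a tuple to a sequence -/
noncomputable def ex {m : ℕ} (f : Fin m → ℝ) (i : ℕ) : ℝ := if h : i < m then f ⟨i, h⟩ else 0

theorem ex_of_lt {m : ℕ} (f : Fin m → ℝ) {i : ℕ} (h : i < m) : ex f i = f ⟨i, h⟩ := dif_pos h

theorem ex_fin {m : ℕ} (f : Fin m → ℝ) (i : Fin m) : ex f i = f i := ex_of_lt f i.2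

/-- the range of indices with value `0` of a monotone tuple -/
theorem exists_range {m : ℕ} {f : Fin m → ℝ} (hf : Monotone f) (h0 : ∃ j, f j = 0) :
    ∃ a b : ℕ, a ≤ b ∧ b < m ∧ (∀ j : Fin m, a ≤ j → (j : ℕ) ≤ b → f j = 0) ∧
      ∀ j : Fin m, f j = 0 → a ≤ j ∧ (j : ℕ) ≤ b := by
  classical
  set Z := Finset.univ.filter fun j : Fin m => f j = 0 with hZ
  have hne : Z.Nonempty := by
    obtain ⟨j, hj⟩ := h0
    exact ⟨j, by rw [hZ, Finset.mem_filter]; exact ⟨Finset.mem_univ _, hj⟩⟩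
  have hmemZ : ∀ j, j ∈ Z ↔ f j = 0 := fun j => by rw [hZ, Finset.mem_filter]; simp
  refine ⟨Z.min' hne, Z.max' hne, ?_, (Z.max' hne).2, ?_, ?_⟩
  · exact_mod_cast Z.min'_le _ (Z.max'_mem hne)
  · intro j h1 h2
    have h3 : f (Z.min' hne) = 0 := (hmemZ _).1 (Z.min'_mem hne)
    have h4 : f (Z.max' hne) = 0 := (hmemZ _).1 (Z.max'_mem hne)
    have h5 := hf (Fin.le_def.2 h1)
    have h6 := hf (Fin.le_def.2 h2)
    linarith
  · intro j hj
    have := (hmemZ j).2 hj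
    exact ⟨by exact_mod_cast Z.min'_le _ this, by exact_mod_cast Z.le_max' _ this⟩

theorem contrProd_of_contr {n : ℕ} (ih : ∀ F : Finset (MvPolynomial (Fin n) ℝ), Contr n F)
    (Q : Finset ((MvPolynomial (Fin n) ℝ)[X])) (hQ : ∀ q ∈ Q, q.Monic) : ContrProd n Q := by
  classical
  set P : (MvPolynomial (Fin n) ℝ)[X] := X * ∏ q ∈ Q, q with hPdef
  have hP : P.Monic := monic_X.mul (monic_prod_of_monic _ _ hQ)
  have hdvd : ∀ q ∈ Q, q ∣ P := fun q hq => (Finset.dvd_prod_of_mem _ hq).mul_left _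
  set m := P.natDegree with hm
  obtain ⟨D, hD⟩ := exists_detects P
  obtain ⟨U', hU', h', hc', h0', h1', hz', hpat'⟩ := ih D
  -- the index range
  have hroot0 : ∃ j, xi P (0 : Fin n → ℝ) j = 0 := by
    refine exists_xi_eq hP (q := X) (dvd_mul_right _ _) ?_
    simp
  obtain ⟨a, b, hab, hbm, hzero, honly⟩ := exists_range (xi_mono P 0) hroot0
  -- the gap
  obtain ⟨ρ, hρ, hgap⟩ : ∃ ρ : ℝ, 0 < ρ ∧ ∀ j, xi P (0 : Fin n → ℝ) j ≠ 0 →
      2 * ρ ≤ |xi P (0 : Fin n → ℝ) j| := by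
    have : ∀ j : Fin m, ∃ ρ : ℝ, 0 < ρ ∧ ∀ ρ' ≤ ρ, xi P (0 : Fin n → ℝ) j ≠ 0 →
        2 * ρ' ≤ |xi P (0 : Fin n → ℝ) j| := by
      intro j
      by_cases hj : xi P (0 : Fin n → ℝ) j = 0
      · exact ⟨1, one_pos, fun _ _ h => absurd hj h⟩
      · have := abs_pos.2 hj
        exact ⟨|xi P (0 : Fin n → ℝ) j| / 2, by linarith, fun ρ' h _ => by linarith⟩
    choose f hf1 hf2 using this
    have hne : (Finset.univ : Finset (Fin m)).Nonempty := ⟨⟨b, hbm⟩, Finset.mem_univ _⟩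
    obtain ⟨c, hc, hmin⟩ := Finset.exists_min_image Finset.univ f hne
    exact ⟨f c, hf1 c, fun j hj => hf2 j _ (hmin j (Finset.mem_univ _)) hj⟩
  -- the size
  obtain ⟨η, hη, hη1, hη2⟩ : ∃ η : ℝ, 0 < η ∧ η ≤ ρ ∧ (5 + 2 * ((b : ℝ) - a)) * η < ρ := by
    have hK : 0 < 5 + 2 * ((b : ℝ) - a) := by
      have : (a : ℝ) ≤ b := by exact_mod_cast hab
      linarith
    refine ⟨ρ / (2 * (5 + 2 * ((b : ℝ) - a))), by positivity, ?_, ?_⟩
    · rw [div_le_iff₀ (by positivity)]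
      have : (a : ℝ) ≤ b := by exact_mod_cast hab
      nlinarith
    · have : (5 + 2 * ((b : ℝ) - a)) * (ρ / (2 * (5 + 2 * ((b : ℝ) - a)))) = ρ / 2 := by
        field_simp
      rw [this]
      linarith
  set W : Set (Fin n → ℝ) := {x | ∀ j, |xi P x j - xi P 0 j| < η} with hWdef
  have hW : W ∈ 𝓝 (0 : Fin n → ℝ) := by
    have h1 := tendsto_pi_nhds.1 (tendsto_xi hP (tendsto_id (α := Fin n → ℝ) (x := 𝓝 0)))
    have h2 : ∀ j, ∀ᶠ x in 𝓝 (0 : Fin n → ℝ), |xi P x j - xi P 0 j| < η := by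
      intro j
      have := (Metric.tendsto_nhds.1 (h1 j)) η hη
      simpa [Real.dist_eq] using this
    exact eventually_all.2 h2
  have hWin : ∀ x ∈ W, ∀ i, a ≤ i → i ≤ b → |ex (xi P x) i| ≤ η := by
    intro x hx i h1 h2
    rw [ex_of_lt _ (h2.trans_lt hbm)]
    have := hx ⟨i, h2.trans_lt hbm⟩
    rw [hzero ⟨i, h2.trans_lt hbm⟩ h1 h2, sub_zero] at this
    exact this.le
  have hWout : ∀ x ∈ W, ∀ j : Fin m, |xi P x j| < ρ → a ≤ j ∧ (j : ℕ) ≤ b := by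
    intro x hx j hj
    by_contra hcon
    have h1 : xi P 0 j ≠ 0 := fun h => hcon (honly j h)
    have h2 := hgap j h1
    have h3 := hx j
    have h4 := abs_sub_abs_le_abs_sub (xi P 0 j) (xi P x j)
    rw [abs_sub_comm] at h4
    linarith
  have htraj := eventually_traj hU' hc' hz' hW
  set U'' : Set (Fin n → ℝ) := {x | x ∈ U' ∧ ∀ t ∈ Icc (0 : ℝ) 1, h' t x ∈ W} with hU''def
  have hU'' : U'' ∈ 𝓝 (0 : Fin n → ℝ) := by
    filter_upwards [hU', htraj] with x hx1 hx2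
    exact ⟨hx1, hx2⟩
  -- facts along trajectories
  have hγ : ∀ x ∈ U', ContinuousOn (fun t => h' t x) (Ico (0 : ℝ) 1) := by
    intro x hx
    have h1 : ContinuousOn (fun t : ℝ => (t, x)) (Ico (0 : ℝ) 1) := by fun_prop
    exact hc'.comp h1 fun t ht => ⟨⟨ht.1, ht.2.le⟩, hx⟩
  have hpat : ∀ x ∈ U', ∀ t ∈ Ico (0 : ℝ) 1, ∀ t' ∈ Ico (0 : ℝ) 1, ∀ d ∈ D,
      MvPolynomial.eval (h' t x) d = 0 ↔ MvPolynomial.eval (h' t' x) d = 0 := fun x hx t ht t' ht' d hd =>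
    (hpat' t ht x hx d hd).trans (hpat' t' ht' x hx d hd).symm
  have h0mem : (0 : ℝ) ∈ Ico (0 : ℝ) 1 := ⟨le_rfl, one_pos⟩
  have hxi : ∀ x ∈ U', ∀ t ∈ Ico (0 : ℝ) 1, ∀ i j : Fin m,
      xi P (h' t x) i = xi P (h' t x) j ↔ xi P x i = xi P x j := by
    intro x hx t ht i j
    have := xi_eq_iff hP hD isPreconnected_Ico (hγ x hx) (hpat x hx) ht h0mem i j
    rw [h0' x hx] at this
    exact this
  have hrt : ∀ x ∈ U', ∀ t ∈ Ico (0 : ℝ) 1, ∀ q ∈ Q, ∀ j : Fin m,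
      (Pe q (h' t x)).eval (xi P (h' t x) j) = 0 ↔ (Pe q x).eval (xi P x j) = 0 := by
    intro x hx t ht q hq j
    have := root_iff hP hD isPreconnected_Ico (hγ x hx) (hpat x hx) (hQ q hq) (hdvd q hq) ht h0mem j
    rw [h0' x hx] at this
    exact this
  have hstep : ∀ x : Fin n → ℝ, ∀ i ∈ Finset.Ico a b, ex (xi P x) i ≤ ex (xi P x) (i + 1) := by
    intro x i hi
    rw [Finset.mem_Ico] at hi
    rw [ex_of_lt _ (by omega : i < P.natDegree), ex_of_lt _ (by omega : i + 1 < P.natDegree)]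
    exact xi_mono P x (Fin.le_def.2 (Nat.le_succ i))
  have hcoin : ∀ x ∈ U', ∀ t ∈ Icc (0 : ℝ) 1, ∀ i ∈ Finset.Ico a b,
      ex (xi P x) i = ex (xi P x) (i + 1) → ex (xi P (h' t x)) i = ex (xi P (h' t x)) (i + 1) := by
    intro x hx t ht i hi heq
    rw [Finset.mem_Ico] at hi
    rw [ex_of_lt _ (by omega : i < P.natDegree), ex_of_lt _ (by omega : i + 1 < P.natDegree)] at heq ⊢
    rcases ht.2.eq_or_lt with h1 | h1
    · rw [h1, h1' x hx, hzero ⟨i, _⟩ hi.1 hi.2.le, hzero ⟨i + 1, _⟩ (by simp only; omega) (by simp only; omega)]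
    · exact (hxi x hx t ⟨ht.1, h1⟩ _ _).2 heq
  have hlt : ∀ x ∈ U', ∀ t ∈ Ico (0 : ℝ) 1, ∀ i ∈ Finset.Ico a b,
      ex (xi P x) i < ex (xi P x) (i + 1) → ex (xi P (h' t x)) i < ex (xi P (h' t x)) (i + 1) := by
    intro x hx t ht i hi h1
    refine lt_of_le_of_ne (hstep _ i hi) fun h2 => ?_
    rw [Finset.mem_Ico] at hi
    rw [ex_of_lt _ (by omega : i < P.natDegree), ex_of_lt _ (by omega : i + 1 < P.natDegree)] at h1 h2
    rw [(hxi x hx t ht _ _).1 h2] at h1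
    exact lt_irrefl _ h1
  have hex0 : ∀ i, a ≤ i → i ≤ b → ex (xi P (0 : Fin n → ℝ)) i = 0 := by
    intro i h1 h2
    rw [ex_of_lt _ (by omega : i < P.natDegree)]
    exact hzero ⟨i, _⟩ h1 h2
  refine ⟨U'' ×ˢ Ioo (-η) η, ?_, fun t x =>
    (h' t x.1, Phi a b (ex (xi P x.1)) (ex (xi P (h' t x.1))) (1 - t) x.2), ?_, ?_, ?_, ?_, ?_⟩
  · exact prod_mem_nhds hU'' (Ioo_mem_nhds (by simpa using hη) hη)
  · -- continuity
    rintro ⟨t, x, s⟩ ⟨ht, ⟨hx, hxt⟩, hs⟩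
    set l := 𝓝[Icc (0 : ℝ) 1 ×ˢ (U'' ×ˢ Ioo (-η) η)] ((t, x, s) : ℝ × (Fin n → ℝ) × ℝ) with hl
    have hid : Tendsto (fun z : ℝ × (Fin n → ℝ) × ℝ => z) l (𝓝 (t, x, s)) :=
      tendsto_id.mono_left nhdsWithin_le_nhds
    have htt : Tendsto (fun z : ℝ × (Fin n → ℝ) × ℝ => z.1) l (𝓝 t) :=
      (continuous_fst.tendsto (t, x, s)).comp hid
    have hxx : Tendsto (fun z : ℝ × (Fin n → ℝ) × ℝ => z.2.1) l (𝓝 x) :=
      ((continuous_fst.comp continuous_snd).tendsto (t, x, s)).comp hid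
    have hss : Tendsto (fun z : ℝ × (Fin n → ℝ) × ℝ => z.2.2) l (𝓝 s) :=
      ((continuous_snd.comp continuous_snd).tendsto (t, x, s)).comp hid
    have hh : Tendsto (fun z : ℝ × (Fin n → ℝ) × ℝ => h' z.1 z.2.1) l (𝓝 (h' t x)) := by
      have h1 := hc' (t, x) ⟨ht, hx⟩
      have h2 : Tendsto (fun z : ℝ × (Fin n → ℝ) × ℝ => (z.1, z.2.1)) l
          (𝓝[Icc (0 : ℝ) 1 ×ˢ U'] (t, x)) := by
        refine tendsto_nhdsWithin_iff.2 ⟨htt.prodMk_nhds hxx, ?_⟩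
        filter_upwards [self_mem_nhdsWithin] with z hz
        exact ⟨hz.1, hz.2.1.1⟩
      exact h1.tendsto.comp h2
    refine hh.prodMk_nhds ?_
    refine tendsto_Phi hab ?_ ?_ (tendsto_const_nhds.sub htt) hss (hcoin x hx t ht)
    · intro i h1 h2
      simp only [ex_of_lt _ (show i < P.natDegree by omega)]
      exact (tendsto_pi_nhds.1 (tendsto_xi hP hxx)) ⟨i, _⟩
    · intro i h1 h2
      simp only [ex_of_lt _ (show i < P.natDegree by omega)]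
      exact (tendsto_pi_nhds.1 (tendsto_xi hP hh)) ⟨i, _⟩
  · rintro ⟨x, s⟩ ⟨⟨hx, hxt⟩, hs⟩
    simp only [h0' x hx, sub_zero]
    rw [Phi_self hab (hstep x)]
  · rintro ⟨x, s⟩ ⟨⟨hx, hxt⟩, hs⟩
    simp only [h1' x hx, sub_self]
    refine Prod.ext rfl ?_
    change Phi a b (ex (xi P x)) (ex (xi P 0)) 0 s = 0
    unfold Phi
    rw [hex0 a le_rfl hab, zero_mul, zero_mul, Finset.sum_eq_zero]
    · simp
    · intro i hi
      rw [Finset.mem_Ico] at hi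
      unfold tm
      rw [hex0 i hi.1 hi.2.le, hex0 (i + 1) (by omega) (by omega)]
      simp
  · intro t ht
    refine Prod.ext (hz' t ht) ?_
    change Phi a b (ex (xi P 0)) (ex (xi P (h' t 0))) (1 - t) 0 = 0
    rw [hz' t ht]
    have h1 := Phi_node (τ := 1 - t) (v := ex (xi P (0 : Fin n → ℝ))) (hstep 0)
      (fun i _ h => h) le_rfl hab
    rw [hex0 a le_rfl hab] at h1
    exact h1
  · rintro t ht ⟨x, s⟩ ⟨⟨hx, hxt⟩, hs⟩ q hq
    have htI : t ∈ Icc (0 : ℝ) 1 := ⟨ht.1, ht.2.le⟩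
    have hxW : x ∈ W := by
      have := hxt 0 ⟨le_rfl, zero_le_one⟩
      rwa [h0' x hx] at this
    have hyW : h' t x ∈ W := hxt t htI
    have hsη : |s| ≤ η := abs_le.2 ⟨hs.1.le, hs.2.le⟩
    have hτ : 0 < 1 - t := by linarith [ht.2]
    have hnode : ∀ j : Fin m, a ≤ j → (j : ℕ) ≤ b →
        Phi a b (ex (xi P x)) (ex (xi P (h' t x))) (1 - t) (xi P x j) = xi P (h' t x) j := by
      intro j h1 h2
      have := Phi_node (τ := 1 - t) (hstep x) (hcoin x hx t htI) h1 h2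
      rwa [ex_fin, ex_fin] at this
    change (Pe q (h' t x)).eval (Phi a b (ex (xi P x)) (ex (xi P (h' t x))) (1 - t) s) = 0 ↔
      (Pe q x).eval s = 0
    constructor
    · intro h1
      obtain ⟨j, hj⟩ := exists_xi_eq hP (hdvd q hq) h1
      have h2 : |xi P (h' t x) j| < ρ := by
        rw [hj]
        exact (abs_Phi_le hab hτ.le (by linarith [ht.1]) (hWin x hxW) (hWin _ hyW) hsη).trans_lt hη2
      obtain ⟨h3, h4⟩ := hWout _ hyW j h2
      rw [← hnode j h3 h4] at hj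
      have hinj := (strictMono_Phi hab hτ (hstep x) (hstep (h' t x)) (hlt x hx t ht)).injective
      rw [← hinj hj]
      rw [← hj, hnode j h3 h4] at h1
      exact (hrt x hx t ht q hq j).1 h1
    · intro h1
      obtain ⟨j, hj⟩ := exists_xi_eq hP (hdvd q hq) h1
      have h2 : |xi P x j| < ρ := by
        rw [hj]
        exact (abs_lt.2 ⟨hs.1, hs.2⟩).trans_le hη1
      obtain ⟨h3, h4⟩ := hWout _ hxW j h2
      rw [← hj, hnode j h3 h4]
      rw [← hj] at h1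
      exact (hrt x hx t ht q hq j).2 h1

end Groth.Agent.An.H881.Step
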